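import Cfsg.Agent.Lib.KCl.Snd4

/-!
# A part of the search for eleven classes
-/

set_option autoImplicit false

namespace Cfsg.Lib.KCl

open Cfsg.Lib.Calc

theorem run1 : mainR 10 okN 2 3 2047 1 = true := by decide +kernel

end Cfsg.Lib.KCl
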