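import Cfsg.Agent.Lib.KCl.R0
import Cfsg.Agent.Lib.KCl.R1
import Cfsg.Agent.Lib.KCl.R2
import Cfsg.Agent.Lib.KCl.R3
import Cfsg.Agent.Lib.KCl.R4
import Cfsg.Agent.Lib.KCl.R5
import Cfsg.Agent.Lib.KCl.R6
import Cfsg.Agent.Lib.KCl.R7
import Cfsg.Agent.Lib.KCl.R8
import Cfsg.Agent.Lib.KCl.R9
import Cfsg.Agent.Lib.KCl.R10
import Cfsg.Agent.Lib.KCl.R11
import Cfsg.Agent.Lib.KCl.R12
import Cfsg.Agent.Lib.KCl.R13
import Cfsg.Agent.Lib.KCl.R14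
import Cfsg.Agent.Lib.KCl.R15

/-!
# The parts of the search put together
-/

set_option autoImplicit false

namespace Cfsg.Lib.KCl

open Cfsg.Lib.Calc

def parts : List (ℕ × ℕ × ℕ × ℕ) := [(1, 2, 3, 2047), (1, 2, 4, 2047), (1, 2, 2040, 2047), (1, 4, 3, 2047),
  (1, 4, 2044, 2047), (1, 8, 2047, 2047), (1, 2033, 2047, 2047), (2, 2, 2, 15), (2, 2, 2, 2032),
  (2, 2, 4, 2047), (2, 2, 2041, 2047), (2, 4, 2, 2047), (2, 4, 2045, 2047), (2, 2041, 2047, 2047)]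

theorem parts_run : ∀ t ∈ parts, mainR 10 okN t.2.1 t.2.2.1 t.2.2.2 t.1 = true := by
  simp only [parts, List.forall_mem_cons, List.not_mem_nil, false_imp_iff, implies_true, and_true]
  exact ⟨run1, run2, run3, run4, run5, run6, run7, run8, run9, run10, run11, run12, run13, run14⟩

theorem parts_cov : allLt 2 (fun m => allLt 11 fun a => allLt 11 fun b => allLt 11 fun c => parts.any fun t =>
    t.1 == m + 1 && (bit t.2.1 a && (bit t.2.2.1 b && bit t.2.2.2 c))) = true := by decide +kernel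

theorem bit_all : ∀ a < 11, bit 2047 a = true := by decide +kernel

variable {K1 N : ℕ} {L : MM}

theorem main_s (h : CD K1 N L) (hK : 8 ≤ K1) (hK' : K1 ≤ 10) (hN : 5616 ≤ N)
    (h1 : ∃ z ∈ L, ∃ w ∈ L, z.1.Prime ∧ w.1.Prime ∧ 3 ≤ z.1 ∧ z.1 < w.1)
    (h2 : ∀ z ∈ L, z.1.Prime → ¬ z.1 ^ 2 ∣ N → z.1 = 2 * cnt L z.1 + 1 →
      ∃ w ∈ L, w.1 ≠ z.1 ∧ (z.1 ∣ w.1 ∨ w.1.Prime ∧ 8 ≤ w.1))
    (h3 : ∃ z ∈ L, ∃ p q, p.Prime ∧ q.Prime ∧ p < q ∧ z.1 = p * q) (h4 : cnt L 2 = 1 → (6, 6) ∉ L) :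
    N = 7920 ∨ N = 10752 ∨ N = 21504 ∨ N = 86016 := by
  have c : ∀ o, cnt L o ≤ K1 := fun o => h.card ▸ Multiset.card_le_card (Multiset.filter_le _ _)
  have c' : ∀ o, cnt L o < 11 := fun o => by have := c o; omega
  obtain ⟨m, hm⟩ := Nat.exists_eq_add_one_of_ne_zero (cnt_pos.2 h.inv2).ne'
  have c2 := c 2
  have k := fun a3 a4 a6 => mainR_s h hK' hN h1 h2 h3 h4 (ok := okN) (a3 := a3) (a4 := a4) (a6 := a6)
  have k' := k _ _ _ (bit_all _ (c' 3)) (bit_all _ (c' 4)) (bit_all _ (c' 6))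
  suffices ∃ P, okN P N = true by
    obtain ⟨P, hP⟩ := this
    simpa only [okN, bor_eq_true, beq_iff] using hP
  rw [hm] at k k' c2
  obtain rfl | rfl | rfl : K1 = 8 ∨ K1 = 9 ∨ K1 = 10 := by omega
  · exact k' (allLt_iff.1 run9c m c2)
  · exact k' (allLt_iff.1 run10c m c2)
  · rcases lt_or_ge m 2 with h5 | h5
    · have h6 := allLt_iff.1 (allLt_iff.1 (allLt_iff.1 (allLt_iff.1 parts_cov m h5) _ (c' 3)) _ (c' 4)) _ (c' 6)
      simp only [List.any_eq_true, Bool.and_eq_true, beq_iff_eq] at h6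
      obtain ⟨t, h6, h7, b3, b4, b6⟩ := h6
      exact k _ _ _ b3 b4 b6 (h7 ▸ parts_run t h6)
    · obtain ⟨i, rfl⟩ := Nat.exists_eq_add_of_le' h5
      exact k' (allLt_iff.1 run15 i (by omega))

end Cfsg.Lib.KCl
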