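import Cfsg.Agent.Lib.Calc.Basic

/-!
# A search through element orders and centralizer orders of a group with few classes
-/

set_option autoImplicit false

namespace Cfsg.Lib.KCl

open Cfsg.Lib.Calc

local notation:25 a:26 " ⟹ " b:25 => @Bool.rec (fun _ => Bool) true b a
local notation:35 a:36 " ⋏ " b:35 => @Bool.rec (fun _ => Bool) false b a
local notation:30 a:31 " ⋎ " b:30 => @Bool.rec (fun _ => Bool) b true a
local notation:max "∼" a:max => @Bool.rec (fun _ => Bool) true false a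
local notation "IF " c " THEN " a " ELSE " b:10 => @Bool.rec (fun _ => Bool) b a c
local notation "IFN " c " THEN " a " ELSE " b:10 => @Bool.rec (fun _ => ℕ) b a c
local notation:50 a:51 " ∣∣ " b:51 => Nat.beq (Nat.mod b a) (nat_lit 0)
local notation:50 a:51 " =ᵇ " b:51 => Nat.beq a b
local notation:50 a:51 " ≤ᵇ " b:51 => Nat.ble a b
local notation:65 a:65 " +ᵇ " b:66 => Nat.add a b
local notation:65 a:65 " -ᵇ " b:66 => Nat.sub a b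
local notation:70 a:70 " *ᵇ " b:71 => Nat.mul a b
local notation:70 a:70 " /ᵇ " b:71 => Nat.div a b
local notation "DD" => nat_lit 1099511627776
local notation:max "WT " c:max => Nat.succ (Nat.div (nat_lit 1099511627776) c)
local notation:max "BIT " m:max o:max => Nat.beq (Nat.land (Nat.shiftRight m o) (nat_lit 1)) (nat_lit 1)
local notation "ALL " x:max " ∈ " l:max ", " f:10 =>
  @List.rec _ (fun _ => Bool) true (fun x _ ih => @Bool.rec (fun _ => Bool) false ih f) l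
local notation "ANY " x:max " ∈ " l:max ", " f:10 =>
  @List.rec _ (fun _ => Bool) false (fun x _ ih => @Bool.rec (fun _ => Bool) ih true f) l
local notation "ALT " x:max " < " n:max ", " f:10 =>
  @Nat.rec (fun _ => Bool) true (fun x ih => @Bool.rec (fun _ => Bool) false ih f) n
local notation "LET " x:max " := " v "; " k:10 => forceB v (fun x => k)

abbrev PP := List (ℕ × ℕ)

noncomputable def mx (a b : ℕ) : ℕ := IFN a ≤ᵇ b THEN b ELSE a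

def lc (a b : ℕ) : ℕ := a *ᵇ b /ᵇ Nat.gcd a b

structure Ent where
  o : ℕ
  rem : ℕ
  base : ℕ
  lb : ℕ
  A : Bool
  u : Bool
  hm : Bool

noncomputable def oblig (P Q : PP) (o : ℕ) (k : ℕ → Bool) : ℕ → Bool :=
  List.rec (motive := fun _ => ℕ → Bool) k
    (fun x _ ih b => IF o ∣∣ x.1 THEN (IF x.1 =ᵇ o ⋎ (ANY y ∈ P, y.1 =ᵇ o ⋏ x.2 ∣∣ y.2) THEN ih b
      ELSE LET b' := lc b x.2; ih b') ELSE ih b) Q

noncomputable def flt (l : List ℕ) (f : ℕ → Bool) (k : List ℕ → Bool) : List ℕ → Bool :=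
  List.rec (motive := fun _ => List ℕ → Bool) k
    (fun a _ ih acc => IF f a THEN ih (a :: acc) ELSE ih acc) l

noncomputable def loop (p hi : ℕ) (g : ℕ → Bool) (f : ℕ) : ℕ → Bool :=
  Nat.rec (motive := fun _ => ℕ → Bool) (fun _ => false)
    (fun _ ih y => y ≤ᵇ hi ⟹ g y ⋏ LET y' := y *ᵇ p; ih y') f

noncomputable def smooth (al : List ℕ) (hi : ℕ) (f : ℕ → Bool) : ℕ → Bool :=
  List.rec (motive := fun _ => ℕ → Bool) f (fun p _ ih => loop p hi ih (nat_lit 64)) al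

noncomputable def vals (o c on : ℕ) (P : PP) (k : List ℕ → Bool) : List ℕ → Bool :=
  List.rec (motive := fun _ => List ℕ → Bool) k
    (fun x _ ih acc => IF o ∣∣ x.1 ⋏ ∼(x.1 =ᵇ o) ⋏ x.1 ∣∣ on ⋏ x.2 ∣∣ c THEN
      (LET v := c /ᵇ x.2; ih (v :: acc)) ELSE ih acc) P

noncomputable def anySub (v : List ℕ) (k : ℕ → Bool) : ℕ → Bool :=
  List.rec (motive := fun _ => ℕ → Bool) k (fun a _ ih t => (LET t' := t +ᵇ a; ih t') ⋎ ih t) v

noncomputable def allSub (v : List ℕ) (k : ℕ → Bool) : ℕ → Bool :=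
  List.rec (motive := fun _ => ℕ → Bool) k (fun a _ ih t => LET t' := t +ᵇ a; ih t') v

noncomputable def chk (o c n t : ℕ) : Bool := n ∣∣ t ⋏ t *ᵇ o ≤ᵇ c

noncomputable def frob (o c r : ℕ) (u : Bool) (P : PP) : Bool :=
  forceB (Nat.gcd c (Nat.pow r (nat_lit 40))) fun n => forceB (o *ᵇ n) fun on =>
    vals o c on P (fun v => IF u THEN allSub v (chk o c n) (nat_lit 1) ELSE anySub v (chk o c n) (nat_lit 1)) []

noncomputable def upd (R : List Ent) (o cp : ℕ) (k : List Ent → Bool) : List Ent → Bool :=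
  List.rec (motive := fun _ => List Ent → Bool) k
    (fun e _ ih acc => IF e.o =ᵇ o THEN (IF e.rem =ᵇ cp THEN ih acc ELSE
      LET r := e.rem -ᵇ cp; ih (⟨o, r, e.base, e.lb, e.A, e.u, e.hm⟩ :: acc)) ELSE ih (e :: acc)) R

noncomputable def push (cp : ℕ) (x : ℕ × ℕ) (k : PP → Bool) : PP → Bool :=
  Nat.rec (motive := fun _ => PP → Bool) k (fun _ ih acc => ih (x :: acc)) cp

abbrev Go := ℕ → ℕ → ℕ → ℕ → ℕ → ℕ → ℕ → PP → List Ent → Bool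

noncomputable def try3 (g : Go) (j pm : ℕ) (P : PP) (R : List Ent) (o cp c na nb bf : ℕ) : Bool :=
  LET gg := Nat.gcd na nb; LET a' := na /ᵇ gg; LET b' := nb /ᵇ gg;
  forceB (j -ᵇ cp) fun j' => LET pm' := Nat.lor pm (Nat.shiftLeft (nat_lit 1) o);
  upd R o cp (fun R' => push cp (o, c) (fun P' => g a' b' j' c o bf pm' P' R') P) []

noncomputable def try2 (prs : List ℕ) (P : PP) (o : ℕ) (u : Bool) (c : ℕ) : Bool :=
  ALL r ∈ prs, r ∣∣ c ⟹ r ∣∣ o ⋎ frob o c r u P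

noncomputable def tryc (K1 : ℕ) (cok : ℕ → ℕ → Bool) (t2 : ℕ → Bool) (t3 : ℕ → ℕ → ℕ → ℕ → Bool)
    (a cb b cl ol bf o c : ℕ) : Bool :=
  (c =ᵇ cl ⟹ o ≤ᵇ ol) ⟹ cok o c ⟹ LET na := a *ᵇ c -ᵇ cb; LET nb := b *ᵇ c;
  forceB (IFN bf =ᵇ (nat_lit 0) ⋏ o =ᵇ (nat_lit 2) THEN K1 *ᵇ (c *ᵇ c) +ᵇ c ELSE bf) fun bf' =>
  (bf' =ᵇ (nat_lit 0) ⋎ nb ≤ᵇ na *ᵇ bf') ⟹ t2 c ⟹ t3 c na nb bf'

noncomputable def body2 (K1 : ℕ) (cok : ℕ → ℕ → Bool) (prs : List ℕ) (g : Go)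
    (a b j lo hi cl ol bf pm : ℕ) (P : PP) (R : List Ent) (o cp lb : ℕ) (u : Bool) (base : ℕ)
    (al : List ℕ) : Bool :=
  LET cb := cp *ᵇ b; LET l2 := mx (mx lo lb) (Nat.succ (cb /ᵇ a));
    smooth al hi (fun c => l2 ≤ᵇ c ⟹
      tryc K1 cok (try2 prs P o u) (try3 g j pm P R o cp) a cb b cl ol bf o c) base

noncomputable def body (K1 : ℕ) (cok : ℕ → ℕ → Bool) (prs : List ℕ) (A2 : ℕ) (g : Go)
    (a b j lo hi cl ol bf pm : ℕ) (P : PP) (R : List Ent) (o cp lb : ℕ) (u : Bool) (base : ℕ) :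
    Bool :=
  base ≤ᵇ hi ⟹ flt prs (fun r => IF r ∣∣ o THEN ∼(r ∣∣ A2) ELSE BIT pm (o *ᵇ r))
    (body2 K1 cok prs g a b j lo hi cl ol bf pm P R o cp lb u base) []

/-- a better upper bound for the next centralizer order -/
noncomputable def ref (R : List Ent) (a b hi : ℕ) (k : ℕ → Bool) : ℕ → ℕ → Bool :=
  List.rec (motive := fun _ => ℕ → ℕ → Bool)
    (fun F jj => IF DD *ᵇ a ≤ᵇ b *ᵇ F THEN k hi ELSE
      forceB (DD *ᵇ (jj *ᵇ b) /ᵇ (DD *ᵇ a -ᵇ b *ᵇ F)) fun h => IF h ≤ᵇ hi THEN k h ELSE k hi)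
    (fun e _ ih F jj => IF e.lb ≤ᵇ hi THEN (LET j' := jj +ᵇ e.rem; ih F j') ELSE
      LET F' := F +ᵇ e.rem *ᵇ WT e.lb; ih F' jj) R

noncomputable def lst (P : PP) (R : List Ent) (o : ℕ) (k : ℕ → Bool) (base : ℕ) : Bool :=
  (ANY x ∈ R, o ∣∣ x.o ⋏ ∼(x.o =ᵇ o)) ⋎ oblig P P o k base

noncomputable def nod (P : PP) (R : List Ent) (hi : ℕ) (bd : ℕ → ℕ → ℕ → Bool → ℕ → Bool) : Bool :=
  ALL e ∈ R, Ent.rec (motive := fun _ => Bool) (fun o rem base lb A u hm =>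
    lb ≤ᵇ hi ⟹ IF hm ⋏ (A ⋎ rem =ᵇ (nat_lit 1)) THEN lst P R o (bd o rem lb u) base
    ELSE IF A THEN bd o rem lb u base ELSE bd o (nat_lit 1) lb u base) e

noncomputable def node (K1 : ℕ) (cok : ℕ → ℕ → Bool) (prs : List ℕ) (A2 : ℕ) (g : Go)
    (a b j cl ol bf pm : ℕ) (P : PP) (R : List Ent) (lo hi : ℕ) : Bool :=
  lo ≤ᵇ hi ⟹ nod P R hi (body K1 cok prs A2 g a b j lo hi cl ol bf pm P R)

noncomputable def step (K1 W0 : ℕ) (cok : ℕ → ℕ → Bool) (fin : PP → ℕ → Bool) (prs : List ℕ)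
    (A2 : ℕ) (g : Go) : Go := fun a b j cl ol bf pm P R =>
  List.rec (motive := fun _ => Bool) (a ∣∣ b ⟹ forceB (b /ᵇ a) (fin P))
    (fun _ _ _ => LET lo := mx (Nat.succ (b /ᵇ a)) cl; LET hi := Nat.succ j *ᵇ b /ᵇ a;
      ref R a b hi (fun h => lo ≤ᵇ h ⟹
        ref R a b h (node K1 cok prs A2 g a b j cl ol bf pm P R lo) W0 (nat_lit 0)) W0 (nat_lit 0)) R

noncomputable def go (K1 W0 : ℕ) (cok : ℕ → ℕ → Bool) (fin : PP → ℕ → Bool) (prs : List ℕ)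
    (A2 : ℕ) (f : ℕ) : Go :=
  Nat.rec (motive := fun _ => Go) (fun _ _ _ _ _ _ _ _ _ => false)
    (fun _ ih => step K1 W0 cok fin prs A2 ih) f

/-! ### The orders -/

abbrev Sel := List Ent → List ℕ → ℕ → ℕ → Bool

noncomputable def leaf (K1 W0 : ℕ) (cok : ℕ → ℕ → Bool) (fin : List ℕ → PP → ℕ → Bool)
    (lsel : Sel) : Sel := fun S prs A2 msk =>
  lsel S prs A2 msk ⟹ go K1 W0 cok (fin prs) prs A2 (Nat.succ K1) (nat_lit 1) (nat_lit 1) K1 (nat_lit 0) (nat_lit 0) (nat_lit 0) (nat_lit 0) [] S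

abbrev Se := ℕ → ℕ → ℕ → Bool → ℕ → Bool

abbrev Sk := List Ent → List ℕ → ℕ → ℕ → ℕ → ℕ → ℕ → Bool

noncomputable def kid2 (sel : Se) (g : Sk) (S : List Ent) (prs : List ℕ)
    (A2 msk o b lb : ℕ) (A : Bool) (m r' nm : ℕ) : Bool :=
  sel o m b A msk ⟹ IF m =ᵇ (nat_lit 1) THEN g (⟨o, (nat_lit 1), b, lb, A, true, false⟩ :: S) prs A2 msk o r' nm
  ELSE g (⟨o, m, b, lb, A, false, false⟩ :: S) prs A2 msk o r' nm

noncomputable def kid (k : ℕ → ℕ → ℕ → Bool) (r ms o lb m : ℕ) : Bool :=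
  LET nm := ms +ᵇ m *ᵇ WT lb; forceB (r -ᵇ m) fun r' =>
    DD ≤ᵇ nm +ᵇ r' *ᵇ WT (mx (Nat.succ o) (nat_lit 5)) ⟹ k m r' nm

noncomputable def prish (p : ℕ) : Bool := Nat.gcd p (nat_lit 223092870) =ᵇ (nat_lit 1) ⋎ BIT (nat_lit 9054380) p

noncomputable def pre (last r ms o : ℕ) : Bool :=
  Nat.succ last ≤ᵇ o ⋏ DD ≤ᵇ ms +ᵇ r *ᵇ WT (mx o (nat_lit 5))

/-- a new multiple `o` -/
noncomputable def ups (S : List Ent) (o : ℕ) (k : List Ent → ℕ → Bool) : List Ent → ℕ → Bool :=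
  List.rec (motive := fun _ => List Ent → ℕ → Bool) k
    (fun e _ ih acc ms => Ent.rec (motive := fun _ => Bool) (fun o' rem base lb A u _ =>
      IF o' ∣∣ o THEN (IF A ⋎ u THEN (LET b' := lc base o; LET l' := mx lb b';
        LET ms' := ms +ᵇ rem *ᵇ WT l' -ᵇ rem *ᵇ WT lb; ih (⟨o', rem, b', l', A, u, true⟩ :: acc) ms')
        ELSE ih (⟨o', rem, base, lb, A, u, true⟩ :: acc) ms) ELSE ih (e :: acc) ms) e) S

noncomputable def kC3 (lbf : ℕ → ℕ) (sel : Se) (g : Sk) (prs : List ℕ)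
    (A2 msk r o : ℕ) (S' : List Ent) (ms' : ℕ) : Bool :=
  LET lb := mx o (lbf o); LET msk' := Nat.lor msk (Nat.shiftLeft (nat_lit 1) o);
    ALT i < r, LET m := Nat.succ i; kid (kid2 sel g S' prs A2 msk' o o lb false) r ms' o lb m

noncomputable def kC2 (prs : List ℕ) (A2 msk p d o : ℕ) : Bool :=
  (d =ᵇ p ⟹ ∼(p ∣∣ A2)) ⋏ ALL q ∈ prs, q ∣∣ o ⟹ p ≤ᵇ q ⋏ BIT msk (o /ᵇ q)

noncomputable def kC1 (S : List Ent) (prs : List ℕ) (pr : ℕ → Bool) (c2 : ℕ → ℕ → ℕ → Bool)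
    (k : ℕ → Bool) : Bool :=
  ALL p ∈ prs, ALL d ∈ S, LET o := d.o *ᵇ p; pr o ⟹ c2 p d.o o ⟹ k o

noncomputable def kC (lbf : ℕ → ℕ) (sel : Se) (g : Sk) : Sk :=
  fun S prs A2 msk last r ms => kC1 S prs (pre last r ms) (kC2 prs A2 msk) fun o =>
    ups S o (kC3 lbf sel g prs A2 msk r o) [] ms

noncomputable def kA2 (lbf : ℕ → ℕ) (sel : Se) (g : Sk) (S : List Ent) (prs : List ℕ)
    (A2 msk r ms m p : ℕ) : Bool :=
  LET A2' := A2 *ᵇ p; LET msk' := Nat.lor msk (Nat.shiftLeft (nat_lit 1) p); LET lb := mx p (lbf p);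
    kid (kid2 sel g S (p :: prs) A2' msk' p p lb true) r ms p lb m

noncomputable def kA1 (K1 : ℕ) (S : List Ent) (r : ℕ) (pr : ℕ → Bool) (k : ℕ → ℕ → Bool) : Bool :=
  ALL e ∈ S, ALT i < r, e.o +ᵇ i ≤ᵇ K1 ⟹
    LET m := Nat.succ i; LET p := Nat.succ (m *ᵇ e.o); pr p ⟹ prish p ⟹ k m p

noncomputable def kA (K1 : ℕ) (lbf : ℕ → ℕ) (sel : Se) (g : Sk) : Sk :=
  fun S prs A2 msk last r ms => kA1 K1 S r (pre last r ms) (kA2 lbf sel g S prs A2 msk r ms)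

noncomputable def kB3 (sel : Se) (g : Sk) (S : List Ent) (prs : List ℕ)
    (A2 msk r ms i p pp : ℕ) : Bool :=
  LET msk' := Nat.lor msk (Nat.shiftLeft (nat_lit 1) p); ALT m < r, i ≤ᵇ m ⟹ LET m' := Nat.succ m;
    kid (kid2 sel g S (p :: prs) A2 msk' p pp pp false) r ms p pp m'

noncomputable def kB2 (k : ℕ → ℕ → ℕ → Bool) (msk r ms i q p : ℕ) : Bool :=
  LET pp := p *ᵇ p;
    DD ≤ᵇ ms +ᵇ Nat.succ i *ᵇ WT pp +ᵇ (r -ᵇ Nat.succ i) *ᵇ WT (mx p (nat_lit 5)) ⟹ prish p ⟹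
    (ALT u < i, Nat.succ u ∣∣ q ⟹ ∼(BIT msk (q /ᵇ Nat.succ u))) ⟹ k i p pp

noncomputable def kB1 (k : ℕ → ℕ → ℕ → Bool) (last r e : ℕ) : Bool :=
  ALT i < r, LET q := Nat.succ i *ᵇ e; last ≤ᵇ q ⟹ LET p := Nat.succ q; k i q p

noncomputable def kB0 (S : List Ent) (k : ℕ → Bool) : Bool := k (nat_lit 1) ⋏ ALL e ∈ S, k e.o

noncomputable def kB (sel : Se) (g : Sk) : Sk := fun S prs A2 msk last r ms =>
  kB0 S (kB1 (kB2 (kB3 sel g S prs A2 msk r ms) msk r ms) last r)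

noncomputable def sk (K1 : ℕ) (lbf : ℕ → ℕ) (sel : Se) (lf : Sel) (f : ℕ) : Sk :=
  Nat.rec (motive := fun _ => Sk) (fun _ _ _ _ _ _ _ => false)
    (fun _ ih S prs A2 msk last r ms => IF r =ᵇ (nat_lit 0) THEN lf S prs A2 msk ELSE
      kC lbf sel ih S prs A2 msk last r ms ⋏ kA K1 lbf sel ih S prs A2 msk last r ms ⋏
      kB sel ih S prs A2 msk last r ms) f

/-- The whole search, for `m` classes of involutions. -/
noncomputable def run (K1 N0 : ℕ) (lbf : ℕ → ℕ) (cok : ℕ → ℕ → Bool)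
    (fin : List ℕ → PP → ℕ → Bool) (sel : Se) (lsel : Sel) (m : ℕ) : Bool :=
  LET W0 := WT N0; LET lb := mx (nat_lit 4) (lbf (nat_lit 2));
  kid (kid2 sel (sk K1 lbf sel (leaf K1 W0 cok fin lsel) K1) [] [(nat_lit 2)] (nat_lit 1) (nat_lit 6)
    (nat_lit 2) (nat_lit 4) lb false) K1 W0 (nat_lit 2) lb m

/-! ### The final checks -/

noncomputable def psum (N : ℕ) (f : ℕ → Bool) (P : PP) : ℕ :=
  List.rec (motive := fun _ => ℕ) (nat_lit 0) (fun x _ ih => IFN f x.1 THEN N /ᵇ x.2 +ᵇ ih ELSE ih) P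

noncomputable def fin0 (K1 N0 : ℕ) (ok : PP → ℕ → Bool) (prs : List ℕ) (P : PP) (N : ℕ) : Bool :=
  N0 ≤ᵇ N ⟹ (ALL x ∈ P, x.2 ∣∣ N) ⟹
  (ALL r ∈ prs, forceB (Nat.gcd N (Nat.pow r (nat_lit 40))) fun n =>
    n ∣∣ Nat.succ (psum N (fun o => o ∣∣ n) P)) ⟹
  forceB (psum N (fun o => o =ᵇ (nat_lit 2)) P) fun m => m *ᵇ m ≤ᵇ m +ᵇ K1 *ᵇ N ⟹ ok P N

noncomputable def lbf0 (C2 C6 o : ℕ) : ℕ :=
  IFN o ≤ᵇ (nat_lit 6) THEN (IFN o =ᵇ (nat_lit 2) THEN C2 ELSE IFN o =ᵇ (nat_lit 3) THEN (nat_lit 6) ELSE IFN o =ᵇ (nat_lit 4) THEN (nat_lit 8) ELSE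
    IFN o =ᵇ (nat_lit 6) THEN C6 ELSE o) ELSE o

noncomputable def thr (prs : List ℕ) : Bool := ANY p ∈ prs, (nat_lit 3) ≤ᵇ p ⋏ ANY q ∈ prs, Nat.succ p ≤ᵇ q

noncomputable def nep (prs : List ℕ) (msk : ℕ) : Bool :=
  ANY p ∈ prs, ANY q ∈ prs, Nat.succ p ≤ᵇ q ⋏ BIT msk (p *ᵇ q)

noncomputable def ntw (S : List Ent) (prs : List ℕ) : Bool :=
  ALL s ∈ S, s.A ⟹ s.o =ᵇ Nat.succ ((nat_lit 2) *ᵇ s.rem) ⟹
    (ANY q ∈ S, s.o ∣∣ q.o ⋏ ∼(q.o =ᵇ s.o)) ⋎ ANY q ∈ prs, (nat_lit 8) ≤ᵇ q ⋏ ∼(q =ᵇ s.o)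

noncomputable def lsel0 : Sel := fun S prs _ msk => thr prs ⋏ ntw S prs ⋏ nep prs msk

/-- a condition on the number of classes of elements of order `x` -/
noncomputable def cnx (x : ℕ) (φ : ℕ → Bool) (o m msk : ℕ) : Bool :=
  (o =ᵇ x ⟹ φ m) ⋏ (Nat.succ x ≤ᵇ o ⟹ BIT msk x ⋎ φ (nat_lit 0))

noncomputable def selF (N : ℕ) (ps : List ℕ) : Se := fun o _ b A msk =>
  b ∣∣ N ⋏ (A ⟹ ∼(o *ᵇ o ∣∣ N)) ⋏ ALL q ∈ ps, q ≤ᵇ o ⟹ BIT msk q

noncomputable def lselF (ps : List ℕ) : Sel := fun _ _ _ msk => ALL q ∈ ps, BIT msk q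

end Cfsg.Lib.KCl
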