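import Cfsg.Agent.Lib.KCl.Snd2
import Cfsg.Agent.Lib.Inv.Count
import Cfsg.Agent.Lib.FGS.Classes
import Cfsg.Agent.S3993

/-!
# The class data of a finite group
-/

set_option autoImplicit false

namespace Cfsg.Lib.KCl

open Subgroup Finset Cfsg.Lib.BG Cfsg.Lib.Inv Cfsg.Lib.FGS

variable {G : Type*} [Group G]

noncomputable def pr (K : ConjClasses G) : ℕ × ℕ := (orderOf K.out, Nat.card 𝐂[K.out])

theorem conj_out (x : G) : IsConj (ConjClasses.mk x).out x := Quotient.mk_out (s := IsConj.setoid G) x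

theorem pr_mk (x : G) : pr (ConjClasses.mk x) = (orderOf x, Nat.card 𝐂[x]) :=
  Prod.ext (orderOf_eq_of_isConj (conj_out x)) (card_cent1_of_isConj (conj_out x)).symm

variable [Finite G]

open Classical in
noncomputable def cls (W : G → Prop) : Finset (ConjClasses G) :=
  (Set.toFinite {K | ∃ w, W w ∧ ConjClasses.mk w = K}).toFinset

theorem mem_cls {W : G → Prop} {K : ConjClasses G} : K ∈ cls W ↔ ∃ w, W w ∧ ConjClasses.mk w = K :=
  Set.Finite.mem_toFinset _

theorem card_eq_sum_cls (W : G → Prop) (f : ConjClasses G → ℕ)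
    (h : ∀ w, W w → Nat.card {v // W v ∧ IsConj w v} = f (ConjClasses.mk w)) :
    Nat.card {w // W w} = ∑ K ∈ cls W, f K := by
  classical
  have := Fintype.ofFinite (ConjClasses G)
  rw [card_eq_sum_fiber W ConjClasses.mk, ← sum_subset (subset_univ (cls W)) fun K _ hK => ?_]
  · refine sum_congr rfl fun K hK => ?_
    obtain ⟨w, hw, rfl⟩ := mem_cls.1 hK
    rw [← h w hw]
    exact card_subtype_congr fun v => and_congr_right fun _ =>
      ConjClasses.mk_eq_mk_iff_isConj.trans isConj_comm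
  · have : IsEmpty {a // W a ∧ ConjClasses.mk a = K} := ⟨fun a => hK (mem_cls.2 ⟨a.1, a.2⟩)⟩
    exact Nat.card_of_isEmpty

variable (G) in
noncomputable def LL : MM := (cls fun x : G => x ≠ 1).val.map pr

theorem mem_LL {z : ℕ × ℕ} : z ∈ LL G ↔ ∃ x : G, x ≠ 1 ∧ z = (orderOf x, Nat.card 𝐂[x]) := by
  simp only [LL, Multiset.mem_map, mem_val, mem_cls]
  exact ⟨fun ⟨_, ⟨x, h1, h2⟩, h3⟩ => ⟨x, h1, by rw [← h3, ← h2, pr_mk]⟩,
    fun ⟨x, h1, h2⟩ => ⟨_, ⟨x, h1, rfl⟩, by rw [h2, pr_mk]⟩⟩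

theorem mk_mem_LL {x : G} (h : x ≠ 1) : (orderOf x, Nat.card 𝐂[x]) ∈ LL G := mem_LL.2 ⟨x, h, rfl⟩

theorem filter_LL (p : ℕ × ℕ → Prop) [DecidablePred p] :
    (LL G).filter p = (cls fun x : G => x ≠ 1 ∧ p (orderOf x, Nat.card 𝐂[x])).val.map pr := by
  classical
  rw [LL, Multiset.filter_map, ← filter_val]
  congr 2
  ext K
  simp only [mem_filter, mem_cls, Function.comp]
  exact ⟨fun ⟨⟨x, h1, h2⟩, h3⟩ => ⟨x, ⟨h1, by rwa [← h2, pr_mk] at h3⟩, h2⟩,
    fun ⟨x, h1, h2⟩ => ⟨⟨x, h1.1, h2⟩, by rw [← h2, pr_mk]; exact h1.2⟩⟩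

theorem cnt_LL {o : ℕ} (h : o ≠ 1) : cnt (LL G) o = (cls fun x : G => orderOf x = o).card := by
  rw [cnt, filter_LL, Multiset.card_map, card_val]
  congr 1
  ext K
  simp only [mem_cls]
  exact exists_congr fun x => and_congr_left fun _ =>
    and_iff_right_of_imp fun e e' => h (by rw [← e, e', orderOf_one])

theorem sum_LL (p : ℕ × ℕ → Prop) [DecidablePred p] :
    (((LL G).filter p).map (Nat.card G / ·.2)).sum =
      Nat.card {x : G // x ≠ 1 ∧ p (orderOf x, Nat.card 𝐂[x])} := by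
  rw [filter_LL, Multiset.map_map, card_eq_sum_cls _ fun K => Nat.card G / (pr K).2]
  · rfl
  · intro w hw
    rw [pr_mk, ← card_class_mul_card_centralizer w, Nat.mul_div_cancel _ Nat.card_pos]
    refine card_subtype_congr fun v => and_iff_right_of_imp fun h => ?_
    rw [← orderOf_eq_of_isConj h, card_cent1_of_isConj h]
    exact ⟨fun e => hw.1 (isConj_one_left.1 (e ▸ h)), hw.2⟩

theorem card_LL : (LL G).card + 1 = Nat.card (ConjClasses G) := by
  classical
  have := Fintype.ofFinite (ConjClasses G)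
  rw [LL, Multiset.card_map, card_val, Nat.card_eq_fintype_card, ← card_univ,
    ← card_erase_add_one (mem_univ (ConjClasses.mk (1 : G)))]
  congr 2
  ext K
  obtain ⟨x, rfl⟩ := ConjClasses.exists_rep K
  simp only [mem_cls, mem_erase, mem_univ, and_true, ne_eq, ConjClasses.mk_eq_mk_iff_isConj,
    isConj_one_left]
  exact ⟨fun ⟨w, h1, h2⟩ e => h1 (isConj_one_left.1 (e ▸ h2)), fun h => ⟨x, h, IsConj.refl x⟩⟩

theorem card_ne_one : Nat.card {x : G // x ≠ 1 ∧ True} + 1 = Nat.card G := by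
  have := card_subtype_ne_add_one (P := fun _ : G => True) (x := 1) trivial
  rw [Nat.card_congr (Equiv.subtypeUnivEquiv fun _ => trivial)] at this
  rw [← this]
  exact congrArg (· + 1) (card_subtype_congr fun _ => and_comm)

theorem cent_dvd (x : G) : Nat.card 𝐂[x] ∣ Nat.card G := card_subgroup_dvd_card _

theorem LL_sum : (1 : ℚ) = 1 / (Nat.card G : ℕ) + ((LL G).map fun z => (1 : ℚ) / z.2).sum := by
  have h1 := sum_LL (G := G) fun _ => True
  have h2 := card_ne_one (G := G)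
  rw [← h1, Multiset.filter_true] at h2
  have h3 : (Nat.card G : ℚ) ≠ 0 := Nat.cast_ne_zero.2 Nat.card_pos.ne'
  have h4 : ((((LL G).map (Nat.card G / ·.2)).sum : ℕ) : ℚ) =
      Nat.card G * ((LL G).map fun z => (1 : ℚ) / z.2).sum := by
    rw [Nat.cast_multiset_sum, Multiset.map_map, ← Multiset.sum_map_mul_left]
    refine congrArg _ (Multiset.map_congr rfl fun z hz => ?_)
    obtain ⟨x, -, rfl⟩ := mem_LL.1 hz
    simp only [Function.comp]
    rw [Nat.cast_div (cent_dvd x) (Nat.cast_ne_zero.2 Nat.card_pos.ne'), mul_one_div]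
  have h5 := congrArg (Nat.cast : ℕ → ℚ) h2
  rw [Nat.cast_succ, h4] at h5
  field_simp
  linarith

theorem LL_frob1 {n : ℕ} (h : n ∣ Nat.card G) :
    n ∣ (((LL G).filter (·.1 ∣ n)).map (Nat.card G / ·.2)).sum + 1 := by
  have h1 := Cfsg.Agent.S3993.result n h
  rw [← card_subtype_ne_add_one (P := fun g : G => g ^ n = 1) (one_pow n)] at h1
  rw [sum_LL]
  convert h1 using 2
  exact card_subtype_congr fun x => by rw [orderOf_dvd_iff_pow_eq_one, and_comm]

theorem LL_inv : (((LL G).filter (·.1 = 2)).map (Nat.card G / ·.2)).sum *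
    (((LL G).filter (·.1 = 2)).map (Nat.card G / ·.2)).sum ≤
      (((LL G).filter (·.1 = 2)).map (Nat.card G / ·.2)).sum + (LL G).card * Nat.card G := by
  classical
  have := Fintype.ofFinite G
  have h1 : Nat.card {x : G // x ≠ 1 ∧ orderOf x = 2} = Nat.card {x : G // orderOf x = 2} :=
    card_subtype_congr fun x => and_iff_right_of_imp fun e e' => by simp [e'] at e
  rw [sum_LL]
  dsimp only
  rw [h1, ← sq, sq_card_inv_eq_sum, ← add_sum_erase _ _ (mem_univ 1), card_pairs_one]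
  refine Nat.add_le_add_left ((sum_le_sum fun x _ => card_pairs_le x).trans ?_) _
  have h2 := card_classes_mul_card (G := G)
  rw [← add_sum_erase _ _ (mem_univ 1), ← card_LL, add_mul, one_mul] at h2
  have h3 : Nat.card 𝐂[(1 : G)] = Nat.card G := by
    rw [show 𝐂[(1 : G)] = ⊤ from eq_top_iff.2 fun x _ => mem_cent1.2 (by simp), card_top]
  omega

end Cfsg.Lib.KCl
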