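import Cfsg.Agent.Lib.KCl.Grp
import Cfsg.Agent.Lib.Modular.Basic
import Cfsg.Agent.S0960
import Cfsg.Agent.S0133
import Cfsg.Agent.S0204
import Cfsg.Agent.S0087

/-!
# The class data of a simple group satisfy the conditions of the search
-/

set_option autoImplicit false

namespace Cfsg.Lib.KCl

open Subgroup Finset Cfsg.Lib.BG Cfsg.Lib.Inv Cfsg.Lib.FGS

variable {G : Type*} [Group G] [Finite G] {x : G}

theorem card_hcl (H : Subgroup G) (W : G → Prop) {w : G} (h : ∀ v, W v ∧ IsConj w v ↔ v ∈ hcl H w) :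
    Nat.card {v // W v ∧ IsConj w v} = (𝐂[w]).relIndex H := by
  rw [← ncard_hcl, ← Nat.card_coe_set_eq]
  exact card_subtype_congr h

theorem cls_le {W V : G → Prop} (h : ∀ w, W w → ∃ v, V v ∧ IsConj v w) : cls W ⊆ cls V := fun K hK => by
  obtain ⟨w, h1, rfl⟩ := mem_cls.1 hK
  obtain ⟨v, h2, h3⟩ := h w h1
  exact mem_cls.2 ⟨v, h2, ConjClasses.mk_eq_mk_iff_isConj.2 h3⟩

theorem isConj_of_cnt {o : ℕ} (h : o ≠ 1) (h1 : cnt (LL G) o = 1) {y : G} (hx : orderOf x = o)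
    (hy : orderOf y = o) : IsConj x y := by
  rw [cnt_LL h] at h1
  exact ConjClasses.mk_eq_mk_iff_isConj.1
    (card_le_one.1 h1.le _ (mem_cls.2 ⟨x, hx, rfl⟩) _ (mem_cls.2 ⟨y, hy, rfl⟩))

theorem LL_frob (hx : x ≠ 1) {n : ℕ} (h1 : n ∣ Nat.card 𝐂[x]) (h2 : n.Coprime (orderOf x)) :
    ∃ S ≤ (LL G).filter (rel (orderOf x) (Nat.card 𝐂[x]) n),
      n ∣ 1 + (S.map (Nat.card 𝐂[x] / ·.2)).sum ∧
        (1 + (S.map (Nat.card 𝐂[x] / ·.2)).sum) * orderOf x ≤ Nat.card 𝐂[x] ∧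
          (cnt (LL G) (orderOf x) = 1 → S = (LL G).filter (rel (orderOf x) (Nat.card 𝐂[x]) n)) := by
  classical
  obtain ⟨a, ha1, ha2⟩ := Nat.chineseRemainder h2 0 1
  have hn : n ∣ a := (Nat.modEq_zero_iff_dvd.1 ha1)
  have e1 : x ^ a = x := by rw [pow_eq_pow_iff_modEq.2 ha2, pow_one]
  have e2 : ∀ w : G, w ^ (orderOf x * n) = 1 → w ^ a = x → (w * x⁻¹) ^ n = 1 := fun w k1 k2 => by
    have c : Commute w x := k2 ▸ (Commute.refl w).pow_right a
    rw [c.inv_right.mul_pow, inv_pow, mul_inv_eq_one, ← k2, ← pow_mul, pow_eq_pow_iff_modEq]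
    refine Nat.ModEq.of_dvd (orderOf_dvd_of_pow_eq_one k1) ?_
    simpa using (ha2.mul_right' n).symm
  let W : G → Prop := fun w => w ^ (orderOf x * n) = 1 ∧ w ^ a = x
  have e3 : Nat.card {y : 𝐂[x] // y ^ n = 1} = Nat.card {w // W w} := by
    refine Nat.card_congr ⟨fun y => ⟨y.1 * x, ?_⟩, fun w => ⟨⟨w.1 * x⁻¹, ?_⟩, Subtype.ext (e2 _ w.2.1 w.2.2)⟩,
      fun y => by simp, fun w => by simp⟩
    · have c : Commute (y.1 : G) x := mem_cent1.1 y.1.2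
      have k : (y.1 : G) ^ n = 1 := congrArg Subtype.val y.2
      obtain ⟨b, rfl⟩ := hn
      exact ⟨by rw [c.mul_pow, pow_mul', k, one_pow, pow_mul, pow_orderOf_eq_one, one_pow, one_mul],
        by rw [c.mul_pow, pow_mul, k, one_pow, one_mul, e1]⟩
    · have c : Commute w.1 x := w.2.2 ▸ (Commute.refl w.1).pow_right a
      exact mem_cent1.2 (c.mul_left (Commute.refl x).inv_left)
  have e4 : ∀ w, W w → 𝐂[w] ≤ 𝐂[x] := fun w hw g hg =>
    mem_cent1.2 (hw.2 ▸ (Commute.pow_right (mem_cent1.1 hg) a :))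
  have e5 := card_eq_sum_cls W (fun K => Nat.card 𝐂[x] / (pr K).2) fun w hw => by
    rw [card_hcl 𝐂[x] W fun v => ?_, pr_mk, ← card_mul_relIndex (e4 w hw),
      Nat.mul_div_cancel_left _ Nat.card_pos]
    refine ⟨fun ⟨k1, k2⟩ => ?_, ?_⟩
    · obtain ⟨g, rfl⟩ := isConj_iff.1 k2
      exact ⟨g, mem_centralizer_singleton_iff_conj.2 (by have := k1.2; rwa [conj_pow, hw.2] at this), rfl⟩
    · rintro ⟨g, k, rfl⟩
      exact ⟨⟨by rw [conj_pow, hw.1]; simp, by rw [conj_pow, hw.2, mem_centralizer_singleton_iff_conj.1 k]⟩,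
        isConj_iff.2 ⟨g, rfl⟩⟩
  have e6 : ConjClasses.mk x ∈ cls W :=
    mem_cls.2 ⟨x, ⟨by rw [pow_mul, pow_orderOf_eq_one, one_pow], e1⟩, rfl⟩
  rw [← add_sum_erase _ _ e6, pr_mk, Nat.div_self Nat.card_pos, ← e3] at e5
  have e7 : ((((cls W).erase (ConjClasses.mk x)).val.map pr).map (Nat.card 𝐂[x] / ·.2)).sum =
      ∑ K ∈ (cls W).erase (ConjClasses.mk x), Nat.card 𝐂[x] / (pr K).2 := by
    rw [Multiset.map_map]; rfl
  have e8 : (cls W).erase (ConjClasses.mk x) ⊆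
      cls fun w : G => w ≠ 1 ∧ rel (orderOf x) (Nat.card 𝐂[x]) n (orderOf w, Nat.card 𝐂[w]) := fun K hK => by
    obtain ⟨k1, k2⟩ := mem_erase.1 hK
    obtain ⟨w, hw, rfl⟩ := mem_cls.1 k2
    refine mem_cls.2 ⟨w, ⟨fun e => hx (by rw [← hw.2, e, one_pow]), hw.2 ▸ orderOf_pow_dvd a, fun e => k1 ?_,
      orderOf_dvd_of_pow_eq_one hw.1, card_dvd_of_le (e4 w hw)⟩, rfl⟩
    rw [← hw.2, pow_eq_pow_iff_modEq.2 (show a ≡ 1 [MOD orderOf w] from (show orderOf w = _ from e) ▸ ha2),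
      pow_one]
  refine ⟨((cls W).erase (ConjClasses.mk x)).val.map pr, ?_, ?_, ?_, fun h => ?_⟩
  · rw [filter_LL]
    exact Multiset.map_le_map (val_le_iff.2 e8)
  · rw [e7, ← e5]
    exact Cfsg.Agent.S3993.result n h1
  · rw [e7, ← e5, ← Nat.card_zpowers, ← Nat.card_prod]
    refine Nat.card_le_card_of_injective (fun y => y.1.1 * ⟨y.2.1, zpowers_le.2 (mem_cent1.2 rfl) y.2.2⟩) ?_
    rintro ⟨⟨⟨y, k1⟩, k2⟩, _, i, rfl⟩ ⟨⟨⟨z, k3⟩, k4⟩, _, j, rfl⟩ e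
    replace e : y * x ^ i = z * x ^ j := congrArg Subtype.val e
    replace k2 : y ^ n = 1 := congrArg Subtype.val k2
    replace k4 : z ^ n = 1 := congrArg Subtype.val k4
    have k5 : y = z * x ^ (j - i) := by rw [zpow_sub, ← mul_assoc, ← e, mul_inv_cancel_right]
    have k6 : (x ^ (j - i)) ^ n = 1 := by
      rwa [k5, (Commute.zpow_right (mem_cent1.1 k3) _).mul_pow, k4, one_mul] at k2
    have k7 : x ^ (j - i) = 1 := orderOf_eq_one_iff.1 (Nat.eq_one_of_dvd_coprimes h2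
      (orderOf_dvd_of_pow_eq_one k6) (orderOf_dvd_of_mem_zpowers (zpow_mem_zpowers x _)))
    rw [k7, mul_one] at k5
    subst k5
    exact Prod.ext rfl (Subtype.ext (mul_left_cancel e))
  · rw [filter_LL]
    refine congrArg (fun T : Finset _ => T.val.map pr) (Subset.antisymm e8 fun K hK => ?_)
    obtain ⟨w, ⟨-, k1, k2, k3, -⟩, rfl⟩ := mem_cls.1 hK
    refine mem_erase.2 ⟨fun e => k2 (orderOf_eq_of_isConj (ConjClasses.mk_eq_mk_iff_isConj.1 e)), ?_⟩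
    have k4 : orderOf (w ^ a) = orderOf x := by
      refine Nat.dvd_antisymm (orderOf_dvd_of_pow_eq_one ?_) ?_
      · rw [← pow_mul, ← orderOf_dvd_iff_pow_eq_one, mul_comm]
        exact k3.trans (Nat.mul_dvd_mul_left _ hn)
      · refine Nat.Coprime.dvd_of_dvd_mul_left (k := orderOf x) (m := a) ?_ (k1.trans ?_)
        · rw [Nat.coprime_comm, Nat.Coprime, ha2.gcd_eq, Nat.gcd_one_left]
        · rw [orderOf_dvd_iff_pow_eq_one, pow_mul, pow_orderOf_eq_one]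
    obtain ⟨g, hg⟩ := isConj_iff.1 (isConj_of_cnt (mt orderOf_eq_one_iff.1 hx) h k4 rfl)
    exact mem_cls.2 ⟨g * w * g⁻¹, ⟨by rw [conj_pow, orderOf_dvd_iff_pow_eq_one.1 k3]; simp,
      by rw [conj_pow, hg]⟩, ConjClasses.mk_eq_mk_iff_isConj.2 (isConj_iff.2 ⟨g, rfl⟩).symm⟩

omit [Finite G] in
theorem cent_zpowers (x : G) : 𝐂(zpowers x) = 𝐂[x] := by
  rw [zpowers_eq_closure, centralizer_closure]

theorem zpowers_eq_of_prime (hp : (orderOf x).Prime) {y : G} (h : y ∈ zpowers x) (h1 : y ≠ 1) :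
    zpowers y = zpowers x :=
  eq_of_le_of_card_ge (zpowers_le.2 h) (by
    rw [Nat.card_zpowers, Nat.card_zpowers,
      ((Nat.dvd_prime hp).1 (orderOf_dvd_of_mem_zpowers h)).resolve_left (mt orderOf_eq_one_iff.1 h1)])

theorem prime_cls (hp : (orderOf x).Prime) : orderOf x =
    (cls fun y => y ∈ zpowers x ∧ y ≠ 1).card * (𝐂[x]).relIndex 𝐍(zpowers x) + 1 := by
  rw [← smul_eq_mul, ← sum_const, ← card_eq_sum_cls _ _ fun w hw => ?_,
    card_subtype_ne_add_one (one_mem _), Nat.card_zpowers]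
  have h1 := zpowers_eq_of_prime hp hw.1 hw.2
  rw [card_hcl 𝐍(zpowers x) _ fun v => ?_, ← cent_zpowers, ← cent_zpowers, h1]
  refine ⟨fun ⟨k1, k2⟩ => ?_, ?_⟩
  · obtain ⟨g, rfl⟩ := isConj_iff.1 k2
    refine ⟨g, mem_normalizer_fintype fun u hu => ?_, rfl⟩
    obtain ⟨i, rfl⟩ : u ∈ zpowers w := h1 ▸ hu
    simpa only [conj_zpow, SetLike.mem_coe] using zpow_mem k1.1 i
  · rintro ⟨g, k, rfl⟩
    exact ⟨⟨(mem_normalizer_iff.1 k w).1 hw.1, fun e => hw.2 (by simpa using e)⟩, isConj_iff.2 ⟨g, rfl⟩⟩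

theorem exists_orderOf_eq {y : G} {d : ℕ} (h : d ∣ orderOf y) : ∃ k, orderOf (y ^ k) = d :=
  ⟨_, orderOf_pow_orderOf_div (orderOf_pos y).ne' h⟩

theorem exists_ord_e (hp : (orderOf x).Prime) :
    ∃ y : G, orderOf y = (𝐂[x]).relIndex 𝐍(zpowers x) := by
  have : IsCyclic (MulAut (zpowers x)) := by
    have := ZMod.isCyclic_units_prime (Nat.card_zpowers x ▸ hp : (Nat.card (zpowers x)).Prime)
    exact isCyclic_of_surjective _ (IsCyclic.mulAutMulEquiv (zpowers x)).symm.surjective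
  obtain ⟨⟨_, g, rfl⟩, hg⟩ := IsCyclic.exists_ofOrder_eq_natCard
    (α := (zpowers x).normalizerMonoidHom.range)
  rw [← index_ker, normalizerMonoidHom_ker, cent_zpowers, ← relIndex, ← orderOf_coe] at hg
  obtain ⟨k, hk⟩ := exists_orderOf_eq (y := (g : G)) (hg ▸ orderOf_coe g ▸ orderOf_map_dvd _ g)
  exact ⟨_, hk⟩

theorem mem_LL_ord {y : G} (h : orderOf y ≠ 1) : ∃ z ∈ LL G, z.1 = orderOf y :=
  ⟨_, mk_mem_LL (mt orderOf_eq_one_iff.2 h), rfl⟩

theorem LL_typB (hp : (orderOf x).Prime) (h : orderOf x ^ 2 ∣ Nat.card G) :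
    orderOf x ^ 2 ∣ Nat.card 𝐂[x] ∧ ∃ t e, 0 < t ∧ t ≤ cnt (LL G) (orderOf x) ∧ orderOf x = t * e + 1 ∧
      (e = 1 ∨ ∃ y ∈ LL G, y.1 = e) := by
  have h1 : x ≠ 1 := mt orderOf_eq_one_iff.2 hp.ne_one
  refine ⟨?_, _, _, card_pos.2 ⟨_, mem_cls.2 ⟨x, ⟨mem_zpowers x, h1⟩, rfl⟩⟩, ?_, prime_cls hp, ?_⟩
  · have := Fact.mk hp
    obtain ⟨P, hP⟩ := (IsPGroup.of_card (n := 1) (by rw [Nat.card_zpowers, pow_one]) :
      IsPGroup (orderOf x) (zpowers x)).exists_le_sylow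
    have h2 : x ∈ (P : Subgroup G) := hP (mem_zpowers x)
    obtain ⟨n, hn⟩ := IsPGroup.iff_card.1 (P.isPGroup'.to_inf_left (K := 𝐂[x]))
    refine Dvd.dvd.trans ?_ (card_dvd_of_le (inf_le_right : (P : Subgroup G) ⊓ 𝐂[x] ≤ _))
    rw [hn]
    refine pow_dvd_pow _ (le_of_not_gt fun h3 => ?_)
    have h4 : zpowers x = (P : Subgroup G) ⊓ 𝐂[x] := eq_of_le_of_card_ge (zpowers_le.2 ⟨h2, mem_cent1.2 rfl⟩) (by
      rw [hn, Nat.card_zpowers]
      exact (Nat.pow_le_pow_right hp.pos (Nat.lt_succ_iff.1 h3)).trans_eq (pow_one _))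
    have : Nontrivial P := ⟨⟨⟨x, h2⟩, 1, fun e => h1 (congrArg Subtype.val e)⟩⟩
    have := P.isPGroup'.center_nontrivial
    obtain ⟨⟨z, hz⟩, h5⟩ := exists_ne (1 : center P)
    have h6 := zpowers_eq_of_prime hp (y := z) (h4 ▸ ⟨z.2, mem_cent1.2
      (congrArg Subtype.val (mem_center_iff.1 hz ⟨x, h2⟩)).symm⟩) fun e => h5 (Subtype.ext (Subtype.ext e))
    have h7 : (P : Subgroup G) ≤ 𝐂[x] := by
      rw [← cent_zpowers, ← h6, cent_zpowers]
      exact fun g hg => mem_cent1.2 (congrArg Subtype.val (mem_center_iff.1 hz ⟨g, hg⟩))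
    rw [inf_eq_left.2 h7, P.card_eq_multiplicity] at hn
    have h8 := (hp.pow_dvd_iff_le_factorization Nat.card_pos.ne').1 h
    have := Nat.pow_right_injective hp.two_le hn
    omega
  · rw [cnt_LL hp.ne_one]
    refine card_le_card (cls_le fun w hw => ⟨w, ?_, IsConj.refl w⟩)
    rw [← Nat.card_zpowers, zpowers_eq_of_prime hp hw.1 hw.2, Nat.card_zpowers]
  · obtain ⟨y, hy⟩ := exists_ord_e hp
    exact hy ▸ or_iff_not_imp_left.2 mem_LL_ord

theorem exists_sylow (hp : (orderOf x).Prime) (h : ¬ orderOf x ^ 2 ∣ Nat.card G) :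
    ∃ P : Sylow (orderOf x) G, (P : Subgroup G) = zpowers x := by
  have := Fact.mk hp
  have h1 := (hp.pow_dvd_iff_le_factorization Nat.card_pos.ne').not.1 h
  have h2 := (hp.dvd_iff_one_le_factorization Nat.card_pos.ne').1 (orderOf_dvd_natCard x)
  exact ⟨Sylow.ofCard (zpowers x) (by
    rw [Nat.card_zpowers, show (Nat.card G).factorization (orderOf x) = 1 by omega, pow_one]), rfl⟩

theorem exists_conj_mem (hp : (orderOf x).Prime) (h : ¬ orderOf x ^ 2 ∣ Nat.card G) {y : G}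
    (hy : orderOf y = orderOf x) : ∃ v, (v ∈ zpowers x ∧ v ≠ 1) ∧ IsConj v y := by
  have := Fact.mk hp
  obtain ⟨P, hP⟩ := exists_sylow hp h
  obtain ⟨Q, hQ⟩ := (IsPGroup.of_card (n := 1) (by rw [Nat.card_zpowers, pow_one, hy]) :
    IsPGroup (orderOf x) (zpowers y)).exists_le_sylow
  obtain ⟨g, rfl⟩ := MulAction.exists_smul_eq G P Q
  obtain ⟨v, h1, h2⟩ := hQ (mem_zpowers y)
  have h3 : IsConj v y := isConj_iff.2 ⟨g, h2⟩
  exact ⟨v, ⟨hP ▸ h1, mt orderOf_eq_one_iff.2 (orderOf_eq_of_isConj h3 ▸ hy ▸ hp.ne_one)⟩, h3⟩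

theorem cnt_eq (hp : (orderOf x).Prime) (h : ¬ orderOf x ^ 2 ∣ Nat.card G) :
    orderOf x = cnt (LL G) (orderOf x) * (𝐂[x]).relIndex 𝐍(zpowers x) + 1 := by
  rw [cnt_LL hp.ne_one, Subset.antisymm (cls_le fun w hw => exists_conj_mem hp h hw)
    (cls_le fun w hw => ⟨w, ?_, IsConj.refl w⟩)]
  · exact prime_cls hp
  · rw [← Nat.card_zpowers, zpowers_eq_of_prime hp hw.1 hw.2, Nat.card_zpowers]

variable [IsSimpleGroup G]

theorem LL_typA (hG : ¬ IsCyclic G) (hp : (orderOf x).Prime) (h2 : orderOf x ≠ 2)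
    (h : ¬ orderOf x ^ 2 ∣ Nat.card G) : (∀ y ∈ LL G, y.1 = orderOf x → y.2 = Nat.card 𝐂[x]) ∧
      ∃ y ∈ LL G, orderOf x = cnt (LL G) (orderOf x) * y.1 + 1 ∧
        y.1 + cnt (LL G) (orderOf x) ≤ (LL G).card + 1 := by
  have := Fact.mk hp
  obtain ⟨P, hP⟩ := exists_sylow hp h
  refine ⟨fun z hz e => ?_, ?_⟩
  · obtain ⟨y, -, rfl⟩ := mem_LL.1 hz
    obtain ⟨v, h3, h4⟩ := exists_conj_mem hp h e
    rw [card_cent1_of_isConj h4, ← cent_zpowers, zpowers_eq_of_prime hp h3.1 h3.2, cent_zpowers]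
  obtain ⟨y, hy⟩ := exists_ord_e hp
  have h3 := cnt_eq hp h
  have h4 : orderOf y ≠ 1 := fun e => by
    obtain ⟨N, hN, h5⟩ := Cfsg.Agent.S0087.result (P : Subgroup G) P.card_coprime_index (by
      rw [hP, cent_zpowers]; exact relIndex_eq_one.1 (hy ▸ e))
    have h6 := h5.card_mul
    rw [hP, Nat.card_zpowers] at h6
    rcases hN.eq_bot_or_eq_top with rfl | rfl
    · rw [card_bot, one_mul] at h6
      exact hG (isCyclic_of_orderOf_eq_card x h6)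
    · rw [card_top] at h6
      exact hp.ne_one (Nat.eq_of_mul_eq_mul_left Nat.card_pos (h6.trans (mul_one _).symm))
  obtain ⟨z, h5, h6⟩ := mem_LL_ord h4
  obtain ⟨M, hM⟩ := Cfsg.Lib.Modular.exists_isPModular hp
  have h7 := (Cfsg.Agent.S0960.result _ M hM h2 P (by rw [hP, Nat.card_zpowers]) (orderOf y)
    (by rw [hP, cent_zpowers, hy])).1
  refine ⟨z, h5, by rw [h6, hy]; exact h3, ?_⟩
  have h8 : Finite (IrrCharacter G) := Nat.finite_of_card_ne_zero (by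
    rw [Cfsg.Agent.S0133.result, ← card_LL]; omega)
  have h9 := Finite.card_subtype_le (· ∈ principalBlock M G)
  rw [Cfsg.Agent.S0133.result, ← card_LL] at h9
  rw [← hy] at h3
  rw [Nat.sub_eq_of_eq_add h3, Nat.mul_div_cancel _ (orderOf_pos y)] at h7
  rw [h6, ← h7]
  exact h9

theorem four_dvd (hG : ¬ IsCyclic G) : 4 ∣ Nat.card G := by
  obtain ⟨E, hE⟩ := Cfsg.Agent.S0204.result hG
  exact hE.card_four ▸ card_subgroup_dvd_card E

omit [IsSimpleGroup G] in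
theorem exists_prime {p : ℕ} (hp : p.Prime) (h : p ∣ Nat.card G) : ∃ z ∈ LL G, z.1 = p := by
  have := Fact.mk hp
  obtain ⟨y, rfl⟩ := exists_prime_orderOf_dvd_card' p h
  exact mem_LL_ord hp.ne_one

theorem LL_CD (hG : ¬ IsCyclic G) (h5 : ∀ x : G, 5 ≤ Nat.card 𝐂[x]) {K : ℕ}
    (hK : Nat.card (ConjClasses G) = K + 1) : CD K (Nat.card G) (LL G) := by
  obtain rfl : (LL G).card = K := by have := card_LL (G := G); omega
  have h4 := four_dvd hG
  refine ⟨rfl, LL_sum, Nat.card_pos, ?_, ?_, ?_, ?_, ?_, ?_, ?_, fun n => LL_frob1, ?_, ?_, h4,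
    exists_prime Nat.prime_two ((by norm_num : 2 ∣ 4).trans h4), LL_inv⟩ <;> intro z hz <;>
    obtain ⟨x, hx, rfl⟩ := mem_LL.1 hz
  · exact cent_dvd x
  · exact (Nat.two_le_iff _).2 ⟨(orderOf_pos x).ne', mt orderOf_eq_one_iff.1 hx⟩
  · exact Nat.card_zpowers x ▸ card_dvd_of_le (zpowers_le.2 (mem_cent1.2 rfl))
  · exact h5 x
  · intro d h1 h2
    obtain ⟨k, rfl⟩ := exists_orderOf_eq h1
    exact ⟨_, mk_mem_LL (mt orderOf_eq_one_iff.2 h2.ne'), rfl,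
      card_dvd_of_le fun g hg => mem_cent1.2 (Commute.pow_right (mem_cent1.1 hg) k :)⟩
  · intro r h1 h2 h3
    have := Fact.mk h1
    obtain ⟨⟨y, h6⟩, h7⟩ := exists_prime_orderOf_dvd_card' r h2
    rw [← orderOf_coe] at h7
    have c : Commute x y := (mem_cent1.1 h6).symm
    have k : (orderOf x).Coprime (orderOf y) := h7 ▸ ((Nat.Prime.coprime_iff_not_dvd h1).2 h3).symm
    have h8 := c.orderOf_mul_eq_mul_orderOf_of_coprime k
    refine ⟨_, mk_mem_LL (x := x * y) (mt orderOf_eq_one_iff.2 ?_), h8.trans (congrArg _ h7),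
      card_dvd_of_le fun g hg => ?_⟩
    · rw [h8]
      exact fun e => hx (orderOf_eq_one_iff.1 (Nat.eq_one_of_mul_eq_one_right e))
    · obtain ⟨a, h9, h10⟩ := Nat.chineseRemainder k 1 0
      have : (x * y) ^ a = x := by
        rw [c.mul_pow, pow_eq_pow_iff_modEq.2 h9, pow_eq_pow_iff_modEq.2 h10, pow_one, pow_zero, mul_one]
      exact mem_cent1.2 (this ▸ (Commute.pow_right (mem_cent1.1 hg) a :))
  · exact fun n => LL_frob hx
  · exact fun h1 h2 => LL_typA hG h1 (fun e => h2 (by dsimp only; rw [e]; exact h4)) h2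
  · exact LL_typB

end Cfsg.Lib.KCl
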