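import Cfsg.Agent.Lib.KCl.Snd4

/-!
# The searches for nine and ten classes and for given orders
-/

set_option autoImplicit false

namespace Cfsg.Lib.KCl

open Cfsg.Lib.Calc

noncomputable def cnt4 (P : PP) : ℕ :=
  List.rec (motive := fun _ => ℕ) 0 (fun x _ ih => cnd (Nat.beq x.1 4) (Nat.succ ih) ih) P

theorem cnt4_e (P : PP) : cnt4 P = cnt P 4 := by
  induction P with
  | nil => rfl
  | cons x P ih =>
    change cnd (Nat.beq x.1 4) (cnt4 P + 1) (cnt4 P) = _
    rw [ih, cnt, cnt, ← Multiset.cons_coe]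
    cases e : Nat.beq x.1 4
    · rw [cnd_false, Multiset.filter_cons_of_neg (p := fun z : ℕ × ℕ => z.1 = 4) _
        (Nat.ne_of_beq_eq_false e)]
    · rw [cnd_true, Multiset.filter_cons_of_pos (p := fun z : ℕ × ℕ => z.1 = 4) _ (beq_iff.1 e),
        Multiset.card_cons]

theorem run9c : allLt 8 (fun i => mainR 8 okN 2047 2047 2047 (i + 1)) = true := by decide +kernel

theorem run10c : allLt 9 (fun i => mainR 9 okN 2047 2047 2047 (i + 1)) = true := by decide +kernel

theorem fix1 : allLt 3 (fun i => fixR (i + 8) 5616 23 [2, 3, 13] (fun _ => true)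
    fun _ _ => false) = true := by decide +kernel

theorem fix2 : allLt 3 (fun i => fixR (i + 8) 175560 132 [2, 3, 5, 7, 11, 19] (fun _ => true)
    fun _ _ => false) = true := by decide +kernel

theorem fix3 : allLt 3 (fun i => fixR (i + 8) 20160 44 [2, 3, 5, 7] (bit 188)
    fun P _ => Nat.beq (cnt4 P + 6) (i + 8)) = true := by decide +kernel

theorem fix4 : allLt 2 (fun i => fixR (i + 8) 29120 53 [2, 5, 7, 13] (fun _ => true)
    fun P _ => Nat.beq (cnt4 P) 1) = true := by decide +kernel

theorem fix5 : allLt 3 (fun i => fixR (i + 8) 32537600 132 [2, 5, 31, 41] (fun _ => true)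
    fun _ _ => false) = true := by decide +kernel

end Cfsg.Lib.KCl
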