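import Cfsg.Agent.Lib.KCl.Eng

/-!
# The loops of the search
-/

set_option autoImplicit false

namespace Cfsg.Lib.KCl

open Cfsg.Lib.Calc

theorem imp_e {a b : Bool} : @Bool.rec (fun _ => Bool) true b a = true ↔ (a = true → b = true) := by
  cases a <;> simp

theorem and_e {a b : Bool} : @Bool.rec (fun _ => Bool) false b a = true ↔ a = true ∧ b = true := by
  cases a <;> simp

theorem or_e {a b : Bool} : @Bool.rec (fun _ => Bool) b true a = true ↔ a = true ∨ b = true := by
  cases a <;> simp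

theorem not_e {a : Bool} : @Bool.rec (fun _ => Bool) true false a = true ↔ ¬ a = true := by
  cases a <;> simp

theorem if_e {α : Type} {c : Bool} {a b : α} :
    @Bool.rec (fun _ => α) b a c = if c = true then a else b := by
  cases c <;> rfl

theorem ifn_e {c : Bool} {a b : ℕ} : @Bool.rec (fun _ => ℕ) b a c = if c = true then a else b := if_e

theorem dv_e {a b : ℕ} : Nat.mod b a = nat_lit 0 ↔ a ∣ b := (Nat.dvd_iff_mod_eq_zero).symm

theorem bit_e {m o : ℕ} :
    Nat.land (Nat.shiftRight m o) (nat_lit 1) = nat_lit 1 ↔ m.testBit o = true := by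
  change (m >>> o) &&& 1 = 1 ↔ _
  rw [Nat.and_one_is_mod, Nat.testBit_eq_decide_div_mod_eq, Nat.shiftRight_eq_div_pow]
  simp

theorem all_e {β : Type} {l : List β} {f : β → Bool} :
    @List.rec _ (fun _ => Bool) true (fun x _ ih => @Bool.rec (fun _ => Bool) false ih (f x)) l = true ↔
      ∀ x ∈ l, f x = true := by
  induction l with
  | nil => simp
  | cons a l ih => rw [List.forall_mem_cons, ← ih]; exact and_e

theorem any_e {β : Type} {l : List β} {f : β → Bool} :
    @List.rec _ (fun _ => Bool) false (fun x _ ih => @Bool.rec (fun _ => Bool) ih true (f x)) l = true ↔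
      ∃ x ∈ l, f x = true := by
  induction l with
  | nil => simp
  | cons a l ih => rw [List.exists_mem_cons_iff, ← ih]; exact or_e

theorem alt_e {n : ℕ} {f : ℕ → Bool} :
    @Nat.rec (fun _ => Bool) true (fun x ih => @Bool.rec (fun _ => Bool) false ih (f x)) n = true ↔
      ∀ x < n, f x = true := allLt_iff

theorem mx_e (a b : ℕ) : mx a b = max a b := by
  unfold mx
  rw [if_e]
  simp only [ble_iff]
  exact (max_def a b).symm

theorem lc_e (a b : ℕ) : lc a b = Nat.lcm a b := rfl

theorem bit_or {m o x : ℕ} :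
    (Nat.lor m (Nat.shiftLeft (nat_lit 1) o)).testBit x = true ↔ m.testBit x = true ∨ x = o := by
  change (m ||| 1 <<< o).testBit x = true ↔ _
  rw [Nat.testBit_or, Nat.one_shiftLeft, Nat.testBit_two_pow]
  simp only [Bool.or_eq_true, decide_eq_true_eq, @eq_comm _ o]

theorem oblig_s {P : PP} {o c : ℕ} {k : ℕ → Bool} (Q : PP) :
    ∀ b, b ∣ c → (∀ x ∈ Q, o ∣ x.1 → x.1 ≠ o → (∃ y ∈ P, y.1 = o ∧ x.2 ∣ y.2) ∨ x.2 ∣ c) →
      oblig P Q o k b = true → ∃ b', b ∣ b' ∧ b' ∣ c ∧ k b' = true := by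
  induction Q with
  | nil => exact fun b h _ h1 => ⟨b, dvd_rfl, h, h1⟩
  | cons x Q ih =>
    intro b h h1 h2
    rw [List.forall_mem_cons] at h1
    change @Bool.rec (fun _ => Bool) (oblig P Q o k b) (@Bool.rec (fun _ => Bool)
      (forceB _ (oblig P Q o k)) (oblig P Q o k b) _) _ = true at h2
    rw [if_e, if_e] at h2
    split_ifs at h2 with h3 h4
    · exact ih b h h1.2 h2
    · simp only [or_e, any_e, and_e, dv_e, beq_iff, not_or] at h3 h4
      rw [forceB_eq, lc_e] at h2
      obtain ⟨b', h5, h6⟩ := ih _ (Nat.lcm_dvd h ((h1.1 h3 h4.1).resolve_left h4.2)) h1.2 h2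
      exact ⟨b', (Nat.dvd_lcm_left _ _).trans h5, h6⟩
    · exact ih b h h1.2 h2

theorem flt_s {f : ℕ → Bool} {k : List ℕ → Bool} {T : ℕ → Prop} (l : List ℕ) :
    ∀ acc, (∀ a ∈ l, T a) → (∀ a ∈ acc, T a) → flt l f k acc = true → ∃ l', (∀ a ∈ l', T a) ∧
      (∀ a ∈ acc, a ∈ l') ∧ (∀ a ∈ l, f a = true → a ∈ l') ∧ k l' = true := by
  induction l with
  | nil => exact fun acc _ t h => ⟨acc, t, fun _ h => h, by simp, h⟩
  | cons x l ih =>
    intro acc t1 t2 h
    rw [List.forall_mem_cons] at t1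
    change @Bool.rec (fun _ => Bool) (flt l f k acc) (flt l f k (x :: acc)) _ = true at h
    rw [if_e] at h
    split_ifs at h with h1
    · obtain ⟨l', t, h2, h3, h4⟩ := ih _ t1.2 (List.forall_mem_cons.2 ⟨t1.1, t2⟩) h
      rw [List.forall_mem_cons] at h2
      exact ⟨l', t, h2.2, List.forall_mem_cons.2 ⟨fun _ => h2.1, h3⟩, h4⟩
    · obtain ⟨l', t, h2, h3, h4⟩ := ih _ t1.2 t2 h
      exact ⟨l', t, h2, List.forall_mem_cons.2 ⟨fun h5 => absurd h5 h1, h3⟩, h4⟩

theorem loop_s {p hi : ℕ} {g : ℕ → Bool} (hp : 0 < p) (f : ℕ) :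
    ∀ y, loop p hi g f y = true → ∀ k, y * p ^ k ≤ hi → g (y * p ^ k) = true := by
  induction f with
  | zero => intro y h; cases h
  | succ f ih =>
    intro y h k hk
    change @Bool.rec (fun _ => Bool) true (@Bool.rec (fun _ => Bool) false
      (forceB _ (loop p hi g f)) _) _ = true at h
    rw [imp_e, and_e, forceB_eq, ble_iff] at h
    have h1 := h ((Nat.le_mul_of_pos_right y (pow_pos hp k)).trans hk)
    cases k with
    | zero => simpa using h1.1
    | succ k =>
      have e : y * p ^ (k + 1) = y * p * p ^ k := by ring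
      rw [e] at hk ⊢
      exact ih _ h1.2 k hk

theorem smooth_s {hi : ℕ} {f : ℕ → Bool} (al : List ℕ) (hal : ∀ p ∈ al, p.Prime) :
    ∀ x u, smooth al hi f x = true → u ≠ 0 → (∀ r, r.Prime → r ∣ u → r ∈ al) → x * u ≤ hi →
      f (x * u) = true := by
  induction al with
  | nil =>
    intro x u h _ h1 _
    have : u = 1 := by
      by_contra h2
      obtain ⟨r, h3, h4⟩ := Nat.exists_prime_and_dvd h2
      exact List.not_mem_nil (h1 r h3 h4)
    rw [this, mul_one]; exact h
  | cons p al ih =>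
    intro x u h h0 h1 h2
    rw [List.forall_mem_cons] at hal
    obtain ⟨k, v, h3, rfl⟩ := Nat.exists_eq_pow_mul_and_not_dvd h0 p hal.1.ne_one
    have h4 : v ≠ 0 := right_ne_zero_of_mul h0
    rw [← mul_assoc] at h2 ⊢
    refine ih hal.2 _ v (loop_s (hi := hi) (g := smooth al hi f) hal.1.pos (nat_lit 64) x h k
      ((Nat.le_mul_of_pos_right _ (Nat.pos_of_ne_zero h4)).trans h2)) h4 (fun r h5 h6 => ?_) h2
    exact (List.mem_cons.1 (h1 r h5 (h6.mul_left _))).resolve_left fun e => h3 (e ▸ h6)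

def rel (o c n : ℕ) (x : ℕ × ℕ) : Prop := o ∣ x.1 ∧ x.1 ≠ o ∧ x.1 ∣ o * n ∧ x.2 ∣ c

instance relDec (o c n : ℕ) : DecidablePred (rel o c n) := fun x => by unfold rel; infer_instance

theorem vals_s {o c n : ℕ} {k : List ℕ → Bool} (P : PP) :
    ∀ acc : List ℕ, ∃ v : List ℕ, (v : Multiset ℕ) =
      acc + ((P : Multiset (ℕ × ℕ)).filter (rel o c n)).map (c / ·.2) ∧
      (k v = true → vals o c (o * n) P k acc = true) := by
  induction P with
  | nil => exact fun acc => ⟨acc, by simp, id⟩
  | cons x P ih =>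
    intro acc
    by_cases h : rel o c n x
    · obtain ⟨v, h1, h2⟩ := ih (c / x.2 :: acc)
      refine ⟨v, ?_, fun h3 => ?_⟩
      · rw [h1, ← Multiset.cons_coe, ← Multiset.cons_coe, Multiset.filter_cons_of_pos _ h,
          Multiset.map_cons, Multiset.cons_add, Multiset.add_cons]
      · change @Bool.rec (fun _ => Bool) _
          (forceB _ (fun v => vals o c (o * n) P k (v :: acc))) _ = true
        rw [if_e, if_pos (by simp only [and_e, not_e, dv_e, beq_iff]; exact h), forceB_eq]
        exact h2 h3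
    · obtain ⟨v, h1, h2⟩ := ih acc
      refine ⟨v, ?_, fun h3 => ?_⟩
      · rw [h1, ← Multiset.cons_coe x, Multiset.filter_cons_of_neg _ h]
      · change @Bool.rec (fun _ => Bool) (vals o c (o * n) P k acc) _ _ = true
        rw [if_e, if_neg (by simp only [and_e, not_e, dv_e, beq_iff]; exact h)]
        exact h2 h3

theorem anySub_s {k : ℕ → Bool} (v : List ℕ) :
    ∀ (s : Multiset ℕ) (t : ℕ), s ≤ v → k (t + s.sum) = true → anySub v k t = true := by
  induction v with
  | nil => intro s t h h1; rw [Multiset.le_zero.1 h] at h1; exact h1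
  | cons a v ih =>
    intro s t h h1
    change @Bool.rec (fun _ => Bool) (anySub v k t) true (forceB (t + a) (anySub v k)) = true
    rw [or_e, forceB_eq]
    rw [← Multiset.cons_coe] at h
    by_cases h2 : a ∈ s
    · obtain ⟨s', rfl⟩ := Multiset.exists_cons_of_mem h2
      rw [Multiset.sum_cons, ← add_assoc] at h1
      exact Or.inl (ih s' _ (Multiset.cons_le_cons_iff a |>.1 h) h1)
    · exact Or.inr (ih s t ((Multiset.le_cons_of_notMem h2).1 h) h1)

theorem allSub_s {k : ℕ → Bool} (v : List ℕ) :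
    ∀ t : ℕ, k (t + v.sum) = true → allSub v k t = true := by
  induction v with
  | nil => exact fun t h1 => h1
  | cons a v ih =>
    intro t h1
    change forceB (t + a) (allSub v k) = true
    rw [List.sum_cons, ← add_assoc] at h1
    rw [forceB_eq]
    exact ih _ h1

def updf (o cp : ℕ) (e : Ent) : Option Ent :=
  if e.o = o then if e.rem = cp then none else some ⟨o, e.rem - cp, e.base, e.lb, e.A, e.u, e.hm⟩
  else some e

theorem upd_s {o cp : ℕ} {k : List Ent → Bool} (R : List Ent) :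
    ∀ acc, upd R o cp k acc = true →
      ∃ R', R'.Perm (acc ++ R.filterMap (updf o cp)) ∧ k R' = true := by
  induction R with
  | nil => exact fun acc h => ⟨acc, by simp, h⟩
  | cons e R ih =>
    intro acc h
    change @Bool.rec (fun _ => Bool) (upd R o cp k (e :: acc)) (@Bool.rec (fun _ => Bool)
      (forceB (e.rem - cp) fun r => upd R o cp k (⟨o, r, e.base, e.lb, e.A, e.u, e.hm⟩ :: acc))
      (upd R o cp k acc) _) _ = true at h
    rw [if_e, if_e, forceB_eq] at h
    simp only [beq_iff] at h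
    split_ifs at h with h1 h2
    · obtain ⟨R', h3, h4⟩ := ih _ h
      exact ⟨R', by simpa [updf, h1, h2] using h3, h4⟩
    · obtain ⟨R', h3, h4⟩ := ih _ h
      refine ⟨R', h3.trans ?_, h4⟩
      rw [List.filterMap_cons_some (b := ⟨o, e.rem - cp, e.base, e.lb, e.A, e.u, e.hm⟩)
        (by simp [updf, h1, h2])]
      exact List.perm_middle.symm
    · obtain ⟨R', h3, h4⟩ := ih _ h
      refine ⟨R', h3.trans ?_, h4⟩
      rw [List.filterMap_cons_some (b := e) (by simp [updf, h1])]
      exact List.perm_middle.symm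

theorem push_e {x : ℕ × ℕ} {k : PP → Bool} (cp : ℕ) :
    ∀ acc, push cp x k acc = k (List.replicate cp x ++ acc) := by
  induction cp with
  | zero => exact fun _ => rfl
  | succ cp ih =>
    intro acc
    change push cp x k (x :: acc) = _
    rw [ih, List.replicate_succ', List.append_assoc]; rfl

def DD : ℕ := nat_lit 1099511627776

def wt (c : ℕ) : ℕ := Nat.succ (Nat.div DD c)

theorem DD_pos : (0 : ℚ) < DD := Nat.cast_pos.2 (Nat.zero_lt_succ _)

theorem wt_le {c d : ℕ} (hc : 0 < c) (h : c ≤ d) : (1 : ℚ) / d ≤ wt c / DD := by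
  have h1 : DD < wt c * c := by
    change DD < (DD / c + 1) * c
    rw [add_mul, one_mul]; exact Nat.lt_div_mul_add hc
  have h2 := DD_pos
  have h3 : (0 : ℚ) < d := by exact_mod_cast hc.trans_le h
  rw [div_le_div_iff₀ h3 h2, one_mul]
  exact_mod_cast h1.le.trans (Nat.mul_le_mul_left _ h)

theorem wt_anti {c d : ℕ} (hc : 0 < c) (h : c ≤ d) : wt d ≤ wt c :=
  Nat.succ_le_succ (Nat.div_le_div_left h hc)

theorem ref_s {a b c hi : ℕ} {k : ℕ → Bool} {s : Ent → ℚ} (hb : 0 < b) (hc : 0 < c) (hh : c ≤ hi)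
    (R : List Ent) : ∀ F jj : ℕ,
      (∀ e ∈ R, s e ≤ e.rem / c ∧ s e ≤ (e.rem * wt e.lb : ℕ) / DD) →
      (a : ℚ) / b ≤ F / DD + jj / c + (R.map s).sum → ref R a b hi k F jj = true →
      ∃ h, c ≤ h ∧ k h = true := by
  have h2 := DD_pos
  induction R with
  | nil =>
    intro F jj _ h1 h
    change @Bool.rec (fun _ => Bool) (forceB (DD * (jj * b) / (DD * a - b * F)) fun h =>
      @Bool.rec (fun _ => Bool) (k hi) (k h) (Nat.ble h hi)) (k hi) (Nat.ble (DD * a) (b * F)) = true at h
    rw [if_e, forceB_eq, if_e] at h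
    simp only [ble_iff] at h
    split_ifs at h with h3 h4
    · exact ⟨hi, hh, h⟩
    · refine ⟨_, ?_, h⟩
      rw [not_le] at h3
      rw [Nat.le_div_iff_mul_le (Nat.sub_pos_of_lt h3)]
      have h5 : (0 : ℚ) < b := by exact_mod_cast hb
      have h6 : (0 : ℚ) < c := by exact_mod_cast hc
      rw [List.map_nil, List.sum_nil, add_zero, div_add_div _ _ h2.ne' h6.ne',
        div_le_div_iff₀ h5 (mul_pos h2 h6)] at h1
      have : (c : ℚ) * (DD * a - b * F : ℕ) ≤ (DD * (jj * b) : ℕ) := by
        rw [Nat.cast_sub h3.le]; push_cast; linarith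
      exact_mod_cast this
    · exact ⟨hi, hh, h⟩
  | cons e R ih =>
    intro F jj h0 h1 h
    rw [List.forall_mem_cons] at h0
    rw [List.map_cons, List.sum_cons] at h1
    change @Bool.rec (fun _ => Bool) (forceB (F + e.rem * wt e.lb) fun F' => ref R a b hi k F' jj)
      (forceB (jj + e.rem) (ref R a b hi k F)) _ = true at h
    rw [if_e, forceB_eq, forceB_eq] at h
    split_ifs at h
    · refine ih F _ h0.2 ?_ h
      rw [Nat.cast_add, add_div]; linarith [h0.1.1]
    · refine ih _ jj h0.2 ?_ h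
      rw [Nat.cast_add, add_div]; linarith [h0.1.2]

end Cfsg.Lib.KCl
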