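import Cfsg.Agent.Lib.KCl.Snd1

/-!
# Soundness of the search through the centralizer orders
-/

set_option autoImplicit false

namespace Cfsg.Lib.KCl

open Cfsg.Lib.Calc

abbrev MM := Multiset (ℕ × ℕ)

def cnt (M : MM) (o : ℕ) : ℕ := (M.filter (·.1 = o)).card

/-- The pairs (element order, centralizer order) of the non-trivial classes. -/
structure CD (K1 N : ℕ) (L : MM) : Prop where
  card : L.card = K1
  sum : (1 : ℚ) = 1 / N + (L.map fun z => (1 : ℚ) / z.2).sum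
  pos : 0 < N
  dvdN : ∀ z ∈ L, z.2 ∣ N
  two : ∀ z ∈ L, 2 ≤ z.1
  dvd : ∀ z ∈ L, z.1 ∣ z.2
  five : ∀ z ∈ L, 5 ≤ z.2
  pow : ∀ z ∈ L, ∀ d, d ∣ z.1 → 1 < d → ∃ y ∈ L, y.1 = d ∧ z.2 ∣ y.2
  prm : ∀ z ∈ L, ∀ r, r.Prime → r ∣ z.2 → ¬ r ∣ z.1 → ∃ y ∈ L, y.1 = z.1 * r ∧ y.2 ∣ z.2
  frob : ∀ z ∈ L, ∀ n, n ∣ z.2 → n.Coprime z.1 → ∃ S ≤ L.filter (rel z.1 z.2 n),
    n ∣ 1 + (S.map (z.2 / ·.2)).sum ∧ (1 + (S.map (z.2 / ·.2)).sum) * z.1 ≤ z.2 ∧
      (cnt L z.1 = 1 → S = L.filter (rel z.1 z.2 n))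
  frob1 : ∀ n, n ∣ N → n ∣ ((L.filter (·.1 ∣ n)).map (N / ·.2)).sum + 1
  typA : ∀ z ∈ L, z.1.Prime → ¬ z.1 ^ 2 ∣ N → (∀ y ∈ L, y.1 = z.1 → y.2 = z.2) ∧
    ∃ y ∈ L, z.1 = cnt L z.1 * y.1 + 1 ∧ y.1 + cnt L z.1 ≤ K1 + 1
  typB : ∀ z ∈ L, z.1.Prime → z.1 ^ 2 ∣ N → z.1 ^ 2 ∣ z.2 ∧
    ∃ t e, 0 < t ∧ t ≤ cnt L z.1 ∧ z.1 = t * e + 1 ∧ (e = 1 ∨ ∃ y ∈ L, y.1 = e)
  four : 4 ∣ N
  inv2 : ∃ z ∈ L, z.1 = 2
  inv : ((L.filter (·.1 = 2)).map (N / ·.2)).sum * ((L.filter (·.1 = 2)).map (N / ·.2)).sum ≤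
    ((L.filter (·.1 = 2)).map (N / ·.2)).sum + K1 * N

structure St (N : ℕ) (L : MM) (e : Ent) : Prop where
  ob : e.o ∣ e.base
  lbp : 0 < e.lb
  bl : ∀ z ∈ L, z.1 = e.o → e.base ∣ z.2 ∧ e.lb ≤ z.2
  A : e.A = true → e.o.Prime ∧ ¬ e.o ^ 2 ∣ N
  u : e.u = true → cnt L e.o = 1

structure Rep (N : ℕ) (L : MM) (R : List Ent) (Q : MM) : Prop where
  nd : (R.map Ent.o).Nodup
  st : ∀ e ∈ R, St N L e ∧ e.rem = cnt Q e.o ∧ 0 < e.rem
  cov : ∀ z ∈ Q, ∃ e ∈ R, e.o = z.1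

theorem Rep.perm {N : ℕ} {L Q : MM} {R R' : List Ent} (h : Rep N L R Q) (e : R'.Perm R) :
    Rep N L R' Q :=
  ⟨(e.map _).nodup_iff.2 h.nd, fun x hx => h.st x (e.subset hx), fun z hz =>
    let ⟨x, h1, h2⟩ := h.cov z hz; ⟨x, e.symm.subset h1, h2⟩⟩

theorem sum_fib (f : ℕ × ℕ → ℚ) (os : List ℕ) (nd : os.Nodup) :
    ∀ Q : MM, (∀ z ∈ Q, z.1 ∈ os) →
      (Q.map f).sum = (os.map fun o => ((Q.filter (·.1 = o)).map f).sum).sum := by
  induction os with
  | nil => intro Q h; rw [Multiset.eq_zero_of_forall_notMem fun z hz => List.not_mem_nil (h z hz)]; rfl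
  | cons o os ih =>
    intro Q h
    rw [List.nodup_cons] at nd
    have h1 := ih nd.2 (Q.filter (¬ ·.1 = o)) fun z hz => by
      rw [Multiset.mem_filter] at hz
      exact (List.mem_cons.1 (h z hz.1)).resolve_left hz.2
    rw [List.map_cons, List.sum_cons, ← Multiset.filter_add_not (·.1 = o) Q, Multiset.map_add,
      Multiset.sum_add, Multiset.filter_add_not, h1]
    congr 2
    refine List.map_congr_left fun x hx => ?_
    rw [Multiset.filter_filter]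
    congr 2
    exact Multiset.filter_congr fun z _ =>
      ⟨fun h => h.1, fun h => ⟨h, fun e => nd.1 (e.symm.trans h ▸ hx)⟩⟩

def sE (Q : MM) (e : Ent) : ℚ := ((Q.filter (·.1 = e.o)).map fun z => (1 : ℚ) / z.2).sum

theorem Rep.sum {N : ℕ} {L Q : MM} {R : List Ent} (h : Rep N L R Q) :
    (Q.map fun z => (1 : ℚ) / z.2).sum = (R.map (sE Q)).sum := by
  rw [sum_fib _ _ h.nd Q fun z hz => let ⟨e, h1, h2⟩ := h.cov z hz; List.mem_map.2 ⟨e, h1, h2⟩,
    List.map_map]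
  rfl

theorem sum_le (Q : MM) {β : ℚ} (h : ∀ z ∈ Q, (1 : ℚ) / z.2 ≤ β) :
    (Q.map fun z => (1 : ℚ) / z.2).sum ≤ Q.card * β := by
  have := Multiset.sum_le_card_nsmul (Q.map fun z => (1 : ℚ) / z.2) β fun x hx => by
    obtain ⟨z, h1, rfl⟩ := Multiset.mem_map.1 hx
    exact h z h1
  rwa [Multiset.card_map, nsmul_eq_mul] at this

theorem sum_nn (Q : MM) : 0 ≤ (Q.map fun z => (1 : ℚ) / z.2).sum :=
  Multiset.sum_nonneg fun x hx => by
    obtain ⟨z, -, rfl⟩ := Multiset.mem_map.1 hx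
    positivity

theorem Rep.sE_le {N : ℕ} {L Q : MM} {R : List Ent} (h : Rep N L R Q) (hQ : Q ≤ L) {e : Ent}
    (he : e ∈ R) : sE Q e ≤ (e.rem * wt e.lb : ℕ) / DD := by
  obtain ⟨h1, h2, -⟩ := h.st e he
  rw [h2, Nat.cast_mul, mul_div_assoc]
  refine sum_le _ fun z hz => ?_
  rw [Multiset.mem_filter] at hz
  exact wt_le h1.lbp (h1.bl z (Multiset.mem_of_le hQ hz.1) hz.2).2

def le2 (x z : ℕ × ℕ) : Prop := x.2 < z.2 ∨ (x.2 = z.2 ∧ z.1 ≤ x.1)

theorem exists_min (Q : MM) : Q ≠ 0 → ∃ y ∈ Q, ∀ z ∈ Q, le2 y z := by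
  induction Q using Multiset.induction_on with
  | empty => exact fun h => absurd rfl h
  | cons x Q ih =>
    intro _
    by_cases h : Q = 0
    · exact ⟨x, by simp, by simp [h, le2]⟩
    · obtain ⟨y, h1, h2⟩ := ih h
      by_cases h3 : le2 y x
      · exact ⟨y, Multiset.mem_cons_of_mem h1, fun z hz => by
          rcases Multiset.mem_cons.1 hz with rfl | hz
          exacts [h3, h2 z hz]⟩
      · refine ⟨x, by simp, fun z hz => ?_⟩
        rcases Multiset.mem_cons.1 hz with rfl | hz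
        · simp [le2]
        · have := h2 z hz
          unfold le2 at *
          omega

structure Inv (N : ℕ) (L : MM) (a b j cl ol bf pm : ℕ) (P : PP) (R : List Ent) (Q : MM) : Prop where
  eq : (P : MM) + Q = L
  b0 : 0 < b
  sum : (a : ℚ) / b = 1 / N + (Q.map fun z => (1 : ℚ) / z.2).sum
  j : j = Q.card
  ord : ∀ z ∈ Q, ∀ x ∈ P, le2 x z
  lst : ∀ z ∈ Q, le2 (ol, cl) z
  bf : bf = 0 ∨ N ≤ bf
  pm : ∀ x ∈ P, pm.testBit x.1 = true
  rep : Rep N L R Q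

variable {K1 N : ℕ} {L : MM}

theorem CD.bf (h : CD K1 N L) {c : ℕ} (hc : (2, c) ∈ L) : N ≤ K1 * (c * c) + c := by
  have h1 := h.inv
  have h2 : N / c ≤ ((L.filter (·.1 = 2)).map (N / ·.2)).sum :=
    Multiset.single_le_sum (fun _ _ => Nat.zero_le _) _
      (Multiset.mem_map.2 ⟨(2, c), Multiset.mem_filter.2 ⟨hc, rfl⟩, rfl⟩)
  generalize ((L.filter (·.1 = 2)).map (N / ·.2)).sum = m at h1 h2
  obtain ⟨s, rfl⟩ := h.dvdN _ hc
  have h3 : 0 < c := Nat.pos_of_mul_pos_right h.pos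
  have h4 : 0 < s := Nat.pos_of_mul_pos_left h.pos
  dsimp only at h1 h2 ⊢
  rw [Nat.mul_div_cancel_left _ h3] at h2
  have h5 : s * s ≤ s + K1 * (c * s) := by
    obtain ⟨d, rfl⟩ := Nat.exists_eq_add_of_le h2
    nlinarith
  have h6 : s ≤ 1 + K1 * c := Nat.le_of_mul_le_mul_right (by linarith) h4
  nlinarith

theorem cnt_add (M M' : MM) (o : ℕ) : cnt (M + M') o = cnt M o + cnt M' o := by
  unfold cnt; rw [Multiset.filter_add, Multiset.card_add]

theorem cnt_rep (n : ℕ) (y : ℕ × ℕ) (o : ℕ) :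
    cnt (Multiset.replicate n y) o = if y.1 = o then n else 0 := by
  unfold cnt
  split_ifs with h
  · rw [Multiset.filter_eq_self.2 fun z hz => Multiset.eq_of_mem_replicate hz ▸ h,
      Multiset.card_replicate]
  · rw [Multiset.filter_eq_nil.2 fun z hz => Multiset.eq_of_mem_replicate hz ▸ h]; rfl

theorem cnt_pos {M : MM} {o : ℕ} : 0 < cnt M o ↔ ∃ z ∈ M, z.1 = o := by
  simp only [cnt, Multiset.card_pos_iff_exists_mem, Multiset.mem_filter]

theorem eq_of_cnt {M : MM} {y z : ℕ × ℕ} (h : cnt M y.1 = 1) (hy : y ∈ M) (hz : z ∈ M)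
    (e : z.1 = y.1) : z = y := by
  obtain ⟨w, h1⟩ := Multiset.card_eq_one.1 h
  have h2 : ∀ x ∈ M, x.1 = y.1 → x = w := fun x a b =>
    Multiset.mem_singleton.1 (h1 ▸ Multiset.mem_filter.2 ⟨a, b⟩)
  rw [h2 z hz e, h2 y hy rfl]

theorem Rep.upd {R : List Ent} {Q : MM} {cp o c : ℕ}
    (h : Rep N L R (Multiset.replicate cp (o, c) + Q)) : Rep N L (R.filterMap (updf o cp)) Q := by
  have k : ∀ e e', e' ∈ updf o cp e → e'.o = e.o := fun e e' h1 => by
    unfold updf at h1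
    split_ifs at h1 with h2 <;> cases h1
    exacts [h2.symm, rfl]
  refine ⟨?_, fun e' h1 => ?_, fun z hz => ?_⟩
  · exact List.pairwise_map.2 ((List.pairwise_map.1 h.nd).filterMap _ fun e e' h1 b hb b' hb' => by
      rw [k _ _ hb, k _ _ hb']; exact h1)
  · obtain ⟨e, h2, h3⟩ := List.mem_filterMap.1 h1
    obtain ⟨h4, h5, h6⟩ := h.st e h2
    rw [cnt_add, cnt_rep] at h5
    unfold updf at h3
    split_ifs at h3 with h7 h8 <;> cases h3
    · rw [if_pos h7.symm, h7] at h5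
      exact ⟨⟨h7 ▸ h4.ob, h4.lbp, h7 ▸ h4.bl, h7 ▸ h4.A, h7 ▸ h4.u⟩, by dsimp only; omega,
        by dsimp only; omega⟩
    · rw [if_neg (Ne.symm h7), zero_add] at h5
      exact ⟨h4, h5, h6⟩
  · obtain ⟨e, h2, h3⟩ := h.cov z (Multiset.mem_add.2 (Or.inr hz))
    have h5 := (h.st e h2).2.1
    have h6 := cnt_pos.2 ⟨z, hz, h3.symm⟩
    rw [cnt_add, cnt_rep] at h5
    by_cases h7 : e.o = o
    · rw [if_pos h7.symm] at h5
      exact ⟨_, List.mem_filterMap.2 ⟨e, h2, by rw [updf, if_pos h7, if_neg (by omega)]⟩,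
        h7.symm.trans h3⟩
    · exact ⟨e, List.mem_filterMap.2 ⟨e, h2, by rw [updf, if_neg h7]⟩, h3⟩

section
variable {a b j cl ol bf pm : ℕ} {P : PP} {R : List Ent} {Q : MM} {o c : ℕ}

theorem Inv.le (I : Inv N L a b j cl ol bf pm P R Q) : Q ≤ L := I.eq ▸ Multiset.le_add_left _ _

theorem Inv.mem (I : Inv N L a b j cl ol bf pm P R Q) (hm : ∀ z ∈ Q, le2 (o, c) z) {z : ℕ × ℕ}
    (hz : z ∈ L) (h : ¬ le2 (o, c) z) : z ∈ P := by
  rw [← I.eq, Multiset.mem_add] at hz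
  exact hz.resolve_right fun h1 => h (hm z h1)

theorem not_le2 {o c : ℕ} {z : ℕ × ℕ} (h0 : 0 < c) (h1 : 0 < z.1) (h2 : o ∣ z.1) (h3 : z.1 ≠ o)
    (h4 : z.2 ∣ c) : ¬ le2 (o, c) z := by
  have := Nat.le_of_dvd h0 h4
  have := Nat.le_of_dvd h1 h2
  unfold le2
  omega

theorem try2_s (h : CD K1 N L) (I : Inv N L a b j cl ol bf pm P R Q) (hy : (o, c) ∈ Q)
    (hm : ∀ z ∈ Q, le2 (o, c) z) {prs : List ℕ} (hp : ∀ r ∈ prs, r.Prime) {u : Bool}
    (hu : u = true → cnt L o = 1) : try2 prs P o u c = true := by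
  have hL := Multiset.mem_of_le I.le hy
  have h0 : 0 < c := lt_of_lt_of_le (by norm_num) (h.five _ hL)
  unfold try2
  refine all_e.2 fun r hr => imp_e.2 fun _ => or_e.2 (or_iff_not_imp_left.2 fun h2 => ?_)
  rw [beq_iff, dv_e] at h2
  obtain ⟨S, h3, h4, h5, h6⟩ := h.frob _ hL (Nat.gcd c (r ^ 40)) (Nat.gcd_dvd_left _ _)
    ((((hp r hr).coprime_iff_not_dvd.2 h2).pow_left 40).coprime_dvd_left (Nat.gcd_dvd_right _ _))
  dsimp only at h3 h4 h5 h6
  have h7 : L.filter (rel o c (Nat.gcd c (r ^ 40))) = (P : MM).filter (rel o c (Nat.gcd c (r ^ 40))) := by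
    rw [← I.eq, Multiset.filter_add, Multiset.filter_eq_nil.2 fun z hz k => not_le2 h0
      (lt_of_lt_of_le two_pos (h.two z (Multiset.mem_of_le I.le hz))) k.1 k.2.1 k.2.2.2 (hm z hz),
      add_zero]
  unfold frob
  rw [forceB_eq, forceB_eq]
  obtain ⟨v, h8, h9⟩ := vals_s (o := o) (c := c) (n := Nat.gcd c (r ^ 40)) (k := fun v =>
    @Bool.rec (fun _ => Bool) (anySub v (chk o c (Nat.gcd c (r ^ 40))) (nat_lit 1))
      (allSub v (chk o c (Nat.gcd c (r ^ 40))) (nat_lit 1)) u) P []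
  rw [Multiset.coe_nil, zero_add, ← h7] at h8
  have k : chk o c (Nat.gcd c (r ^ 40)) (1 + (S.map (c / ·.2)).sum) = true :=
    and_e.2 ⟨beq_iff.2 (dv_e.2 h4), ble_iff.2 h5⟩
  refine h9 ?_
  cases u with
  | false => exact anySub_s v _ 1 (h8 ▸ Multiset.map_le_map h3) k
  | true => exact allSub_s v 1 (by rwa [← Multiset.sum_coe, h8, ← h6 (hu rfl)])

variable {C : Prop} {g : Go}

theorem tryc_s (h : CD K1 N L)
    (hg : ∀ a b j cl ol bf pm P R Q, Inv N L a b j cl ol bf pm P R Q →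
      g a b j cl ol bf pm P R = true → C)
    {cp : ℕ} (I : Inv N L a b j cl ol bf pm P R (Multiset.replicate cp (o, c) + Q)) (hcp : 0 < cp)
    (hm : ∀ z ∈ Multiset.replicate cp (o, c) + Q, le2 (o, c) z) {cok : ℕ → ℕ → Bool}
    (hc : cok o c = true) {t2 : ℕ → Bool} (h2 : t2 c = true)
    (H : tryc K1 cok t2 (try3 g j pm P R o cp) a (cp * b) b cl ol bf o c = true) : C := by
  have hy : (o, c) ∈ Multiset.replicate cp (o, c) + Q :=
    Multiset.mem_add.2 (Or.inl (Multiset.mem_replicate.2 ⟨hcp.ne', rfl⟩))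
  have hL := Multiset.mem_of_le I.le hy
  have h0 : 0 < c := lt_of_lt_of_le (by norm_num) (h.five _ hL)
  have q0 : (0 : ℚ) < c := Nat.cast_pos.2 h0
  have q1 : (0 : ℚ) < b := Nat.cast_pos.2 I.b0
  have q2 : (0 : ℚ) < N := Nat.cast_pos.2 h.pos
  have q3 := sum_nn Q
  have q4 := I.sum
  rw [Multiset.map_add, Multiset.sum_add, Multiset.map_replicate, Multiset.sum_replicate,
    nsmul_eq_mul] at q4
  dsimp only at q4
  generalize hs : (Q.map fun z => (1 : ℚ) / z.2).sum = s at q3 q4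
  have q5 : (a : ℚ) * c - cp * b = b * c * (1 / N + s) := by
    rw [div_eq_iff q1.ne'] at q4
    rw [q4]; field_simp; ring
  have q6 : 0 < b * c * (1 / (N : ℚ) + s) := by positivity
  have q7 : cp * b ≤ a * c := by
    have : (cp : ℚ) * b ≤ a * c := by linarith
    exact_mod_cast this
  have q8 : ((a * c - cp * b : ℕ) : ℚ) = (b * c : ℕ) * (1 / N + s) := by
    rw [Nat.cast_sub q7]; push_cast; exact q5
  unfold tryc at H
  simp only [forceB_eq, ↓imp_e, ↓or_e, beq_iff, ble_iff, ifn_e, ↓and_e] at H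
  have h3 : c = cl → o ≤ ol := fun e => by
    have := I.lst _ hy
    unfold le2 at this
    omega
  change _ → _ → (_ ∨ b * c ≤ (a * c - cp * b) * _) → _ →
    try3 g j pm P R o cp c (a * c - cp * b) (b * c) _ = true at H
  generalize hb : (if bf = nat_lit 0 ∧ o = nat_lit 2 then
    (Nat.mul K1 (Nat.mul c c)).add c else bf) = bf' at H
  have h4 : bf' = 0 ∨ N ≤ bf' := by
    rw [← hb]
    split_ifs with k
    · exact Or.inr (h.bf (k.2 ▸ hL))
    · exact I.bf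
  generalize a * c - cp * b = na at H q8
  have h5 : 0 < b * c := Nat.mul_pos I.b0 h0
  generalize b * c = nb at H q8 h5
  have q9 : (0 : ℚ) < nb := Nat.cast_pos.2 h5
  have H := H h3 hc (h4.imp_right fun k => by
    have : (nb : ℚ) ≤ na * N := by
      rw [q8, mul_assoc, add_mul, one_div_mul_cancel q2.ne']
      nlinarith [mul_nonneg q3 q2.le]
    exact (Nat.cast_le.1 (this.trans_eq (Nat.cast_mul _ _).symm)).trans (Nat.mul_le_mul_left _ k)) h2
  unfold try3 at H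
  simp only [forceB_eq, push_e] at H
  obtain ⟨R', h6, h7⟩ := upd_s R _ H
  have h8 := Nat.gcd_pos_of_pos_right na h5
  refine hg _ _ _ _ _ _ _ _ _ Q ⟨?_, Nat.div_pos (Nat.gcd_le_right _ h5) h8, ?_, ?_, ?_, ?_, h4, ?_,
    I.rep.upd.perm h6⟩ h7
  · rw [← I.eq, ← Multiset.coe_add, Multiset.coe_replicate, add_comm _ (P : MM), add_assoc]
  · change ((na / Nat.gcd na nb : ℕ) : ℚ) / (nb / Nat.gcd na nb : ℕ) = _
    rw [Nat.cast_div_div_div_cancel_right (Nat.gcd_dvd_right _ _) (Nat.gcd_dvd_left _ _), hs, q8,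
      mul_div_cancel_left₀ _ q9.ne']
  · rw [I.j, Multiset.card_add, Multiset.card_replicate]
    exact Nat.add_sub_cancel_left _ _
  · intro z hz x hx
    have hz' := Multiset.mem_add.2 (Or.inr hz : z ∈ Multiset.replicate cp (o, c) ∨ _)
    rcases List.mem_append.1 hx with k | k
    · exact List.eq_of_mem_replicate k ▸ hm z hz'
    · exact I.ord z hz' x k
  · exact fun z hz => hm z (Multiset.mem_add.2 (Or.inr hz))
  · intro x hx
    rcases List.mem_append.1 hx with k | k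
    · exact bit_or.2 (Or.inr (by rw [List.eq_of_mem_replicate k]))
    · exact bit_or.2 (Or.inl (I.pm x k))

theorem Inv.lt (h : CD K1 N L) {cp : ℕ}
    (I : Inv N L a b j cl ol bf pm P R (Multiset.replicate cp (o, c) + Q)) (h0 : 0 < c) :
    cp * b < a * c := by
  have q0 : (0 : ℚ) < c := Nat.cast_pos.2 h0
  have q1 : (0 : ℚ) < b := Nat.cast_pos.2 I.b0
  have q2 : (0 : ℚ) < 1 / N := one_div_pos.2 (Nat.cast_pos.2 h.pos)
  have q3 := sum_nn Q
  have q4 := I.sum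
  rw [Multiset.map_add, Multiset.sum_add, Multiset.map_replicate, Multiset.sum_replicate,
    nsmul_eq_mul, mul_one_div] at q4
  have : (cp : ℚ) / c < a / b := by linarith
  rw [div_lt_div_iff₀ q0 q1] at this
  exact_mod_cast this

variable {prs : List ℕ} {A2 : ℕ} {cok : ℕ → ℕ → Bool}

structure Par (N : ℕ) (L : MM) (prs : List ℕ) (A2 : ℕ) : Prop where
  pr : ∀ r ∈ prs, r.Prime
  cov : ∀ z ∈ L, z.1.Prime → z.1 ∈ prs
  A : ∀ r, r.Prime → r ∣ A2 → ¬ r ^ 2 ∣ N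

theorem body_s (h : CD K1 N L) (hP : Par N L prs A2) (hc : ∀ z ∈ L, cok z.1 z.2 = true)
    (hg : ∀ a b j cl ol bf pm P R Q, Inv N L a b j cl ol bf pm P R Q →
      g a b j cl ol bf pm P R = true → C)
    {cp : ℕ} (I : Inv N L a b j cl ol bf pm P R (Multiset.replicate cp (o, c) + Q)) (hcp : 0 < cp)
    (hm : ∀ z ∈ Multiset.replicate cp (o, c) + Q, le2 (o, c) z) {lo hi lb base : ℕ} {u : Bool}
    (h1 : lo ≤ c) (h2 : c ≤ hi) (h3 : lb ≤ c) (h4 : o ∣ base) (h5 : base ∣ c)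
    (hu : u = true → cnt L o = 1)
    (H : body K1 cok prs A2 g a b j lo hi cl ol bf pm P R o cp lb u base = true) : C := by
  have hy : (o, c) ∈ Multiset.replicate cp (o, c) + Q :=
    Multiset.mem_add.2 (Or.inl (Multiset.mem_replicate.2 ⟨hcp.ne', rfl⟩))
  have hL := Multiset.mem_of_le I.le hy
  have h0 : 0 < c := lt_of_lt_of_le (by norm_num) (h.five _ hL)
  unfold body at H
  obtain ⟨al, t, -, h6, H⟩ := flt_s _ _ hP.pr (fun _ k => absurd k List.not_mem_nil)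
    (imp_e.1 H (ble_iff.2 ((Nat.le_of_dvd h0 h5).trans h2)))
  unfold body2 at H
  rw [forceB_eq, forceB_eq] at H
  obtain ⟨v, rfl⟩ := h5
  have H := smooth_s al t _ v H (right_ne_zero_of_mul h0.ne') (fun r h7 h8 => ?_) h2
  · refine tryc_s h hg I hcp hm (hc _ hL) (try2_s h I hy hm hP.pr hu) (imp_e.1 H (ble_iff.2 ?_))
    rw [mx_e, mx_e]
    exact max_le (max_le h1 h3) (Nat.div_lt_of_lt_mul (I.lt h h0))
  · have k : ∀ z ∈ L, r ∣ z.1 → r ∈ prs := fun z h1 h2 => by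
      obtain ⟨y, h3, rfl, -⟩ := h.pow z h1 r h2 h7.one_lt
      exact hP.cov y h3 h7
    by_cases h9 : r ∣ o
    · refine h6 r (k _ hL h9) ?_
      rw [if_e, if_pos (beq_iff.2 (dv_e.2 h9)), not_e, beq_iff, dv_e]
      exact fun h10 => hP.A r h7 h10
        (((sq r).symm ▸ mul_dvd_mul (h9.trans h4) h8 : r ^ 2 ∣ base * v).trans (h.dvdN _ hL))
    · obtain ⟨y, e1, e2, e3⟩ := h.prm _ hL r h7 (h8.mul_left _) h9
      refine h6 r (k y e1 (e2 ▸ dvd_mul_left _ _)) ?_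
      rw [if_e, if_neg (mt (fun k => dv_e.1 (beq_iff.1 k)) h9), beq_iff, bit_e]
      have e4 := h.two _ hL
      have e5 := I.pm y (I.mem hm e1 (not_le2 h0 (lt_of_lt_of_le two_pos (h.two y e1))
        (e2 ▸ dvd_mul_right _ _) (fun e => ?_) e3))
      · rwa [e2] at e5
      · have := h7.two_le
        dsimp only at e2 e4
        nlinarith

theorem step_s (h : CD K1 N L) (hP : Par N L prs A2) (hc : ∀ z ∈ L, cok z.1 z.2 = true) {W0 : ℕ}
    (hW : (1 : ℚ) / N ≤ W0 / DD) {fin : PP → ℕ → Bool}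
    (hf : ∀ P : PP, (P : MM) = L → fin P N = true → C)
    (hg : ∀ a b j cl ol bf pm P R Q, Inv N L a b j cl ol bf pm P R Q →
      g a b j cl ol bf pm P R = true → C)
    (I : Inv N L a b j cl ol bf pm P R Q)
    (H : step K1 W0 cok fin prs A2 g a b j cl ol bf pm P R = true) : C := by
  have q1 : (0 : ℚ) < b := Nat.cast_pos.2 I.b0
  have q2 : (0 : ℚ) < N := Nat.cast_pos.2 h.pos
  have q3 := I.sum
  have q4 : 0 < a := Nat.cast_pos.1 ((div_pos_iff_of_pos_right q1).1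
    (q3 ▸ add_pos_of_pos_of_nonneg (one_div_pos.2 q2) (sum_nn Q)))
  cases R with
  | nil =>
    obtain rfl : Q = 0 := Multiset.eq_zero_of_forall_notMem fun z hz => by simpa using I.rep.cov z hz
    rw [Multiset.map_zero, Multiset.sum_zero, add_zero, div_eq_div_iff q1.ne' q2.ne', one_mul] at q3
    obtain rfl : a * N = b := by exact_mod_cast q3
    have H := imp_e.1 H (beq_iff.2 (dv_e.2 (dvd_mul_right _ _)))
    rw [forceB_eq] at H
    exact hf P ((add_zero _).symm.trans I.eq) (Nat.mul_div_cancel_left N q4 ▸ H)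
  | cons e0 R0 =>
    change forceB _ (fun lo => forceB _ fun hi => ref (e0 :: R0) a b hi (fun h =>
      @Bool.rec (fun _ => Bool) true (ref (e0 :: R0) a b h
        (node K1 cok prs A2 g a b j cl ol bf pm P (e0 :: R0) lo) W0 0) (Nat.ble lo h)) W0 0) = true at H
    obtain ⟨⟨o, c⟩, hy, hm⟩ := exists_min Q fun k => by
      obtain ⟨-, h1, h2⟩ := I.rep.st e0 List.mem_cons_self
      rw [h1, k] at h2
      exact lt_irrefl _ h2
    generalize e0 :: R0 = R at I H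
    have hL := Multiset.mem_of_le I.le hy
    have h0 : 0 < c := lt_of_lt_of_le (by norm_num) (h.five _ hL)
    have q0 : (0 : ℚ) < c := Nat.cast_pos.2 h0
    have q5 : ∀ z ∈ Q, (1 : ℚ) / z.2 ≤ 1 / c := fun z hz => one_div_le_one_div_of_le q0
      (Nat.cast_le.2 (by have := hm z hz; unfold le2 at this; omega))
    rw [forceB_eq, forceB_eq, mx_e] at H
    generalize hlo : max (Nat.div b a).succ cl = lo at H
    have h1 : lo ≤ c := by
      obtain ⟨Q', rfl⟩ := Multiset.exists_cons_of_mem hy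
      have := I.lst _ hy
      refine hlo ▸ max_le (Nat.div_lt_of_lt_mul ?_) (by unfold le2 at this; omega)
      exact one_mul b ▸ Inv.lt h (cp := 1) (Q := Q') I h0
    have h2 : c ≤ (j + 1) * b / a := by
      have k1 := sum_le Q q5
      have k2 : (1 : ℚ) / N ≤ 1 / c :=
        one_div_le_one_div_of_le q0 (Nat.cast_le.2 (Nat.le_of_dvd h.pos (h.dvdN _ hL)))
      have k3 : (a : ℚ) / b ≤ (j + 1) / c := by
        rw [q3, I.j, add_div, ← mul_one_div (Q.card : ℚ)]; linarith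
      rw [div_le_div_iff₀ q1 q0] at k3
      rw [Nat.le_div_iff_mul_le q4, mul_comm]
      exact_mod_cast k3
    have k1 : ∀ e ∈ R, sE Q e ≤ e.rem / c ∧ sE Q e ≤ (e.rem * wt e.lb : ℕ) / DD := fun e he =>
      ⟨by
        rw [(I.rep.st e he).2.1, ← mul_one_div]
        exact sum_le _ fun z hz => q5 z (Multiset.mem_of_mem_filter hz), I.rep.sE_le I.le he⟩
    have k2 : (a : ℚ) / b ≤ W0 / DD + (0 : ℕ) / c + (R.map (sE Q)).sum := by
      rw [q3, I.rep.sum, Nat.cast_zero, zero_div, add_zero]; linarith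
    obtain ⟨hi, h3, H⟩ := ref_s I.b0 h0 h2 R W0 0 k1 k2 H
    obtain ⟨hi, h3, H⟩ := ref_s I.b0 h0 h3 R W0 0 k1 k2 (imp_e.1 H (ble_iff.2 (h1.trans h3)))
    obtain ⟨⟨o', rem, base, lb, A, u, hm'⟩, he, rfl : o' = o⟩ := I.rep.cov _ hy
    have H := all_e.1 (imp_e.1 H (ble_iff.2 (h1.trans h3))) _ he
    obtain ⟨h4, h5, h6⟩ := I.rep.st _ he
    have h7 := h4.bl _ hL rfl
    dsimp only at h5 h6 h7
    have H := imp_e.1 H (ble_iff.2 (h7.2.trans h3))
    have k3 : A = true ∨ rem = 1 → ∀ z ∈ Q, z.1 = o' → z = (o', c) := fun k z h8 h9 => by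
      rcases k with k | k
      · exact Prod.ext h9 ((h.typA _ hL (h4.A k).1 (h4.A k).2).1 z (Multiset.mem_of_le I.le h8) h9)
      · exact eq_of_cnt (h5.symm.trans k) hy h8 h9
    have k4 : ∀ cp b', 0 < cp → Multiset.replicate cp (o', c) ≤ Q → base ∣ b' → b' ∣ c →
        body K1 cok prs A2 g a b j lo hi cl ol bf pm P R o' cp lb u b' = true → C :=
      fun cp b' e1 e2 e3 e4 H => by
        obtain ⟨Q', rfl⟩ := Multiset.le_iff_exists_add.1 e2
        exact body_s h hP hc hg I e1 hm h1 h3 h7.2 (h4.ob.trans e3) e4 h4.u H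
    have k5 : A = true ∨ rem = 1 → Multiset.replicate rem (o', c) ≤ Q := fun k => by
      rw [← Multiset.eq_replicate.2 ⟨h5.symm, fun z hz => k3 k z (Multiset.mem_filter.1 hz).1
        (Multiset.mem_filter.1 hz).2⟩]
      exact Multiset.filter_le _ _
    rw [if_e] at H
    split_ifs at H with e1
    · have k : A = true ∨ rem = 1 := (or_e.1 (and_e.1 e1).2).imp_right beq_iff.1
      have k6 : ∀ z ∈ L, o' ∣ z.1 → z.1 ≠ o' → (∃ y ∈ P, y.1 = o' ∧ z.2 ∣ y.2) ∨ z.2 ∣ c :=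
        fun z e2 e3 _ => by
          obtain ⟨y, e4, e5, e6⟩ := h.pow z e2 o' e3 (h.two _ hL)
          rw [← I.eq, Multiset.mem_add] at e4
          exact e4.imp (fun e4 => ⟨y, e4, e5, e6⟩) fun e4 => by rwa [k3 k y e4 e5] at e6
      rcases or_e.1 H with H | H
      · obtain ⟨x, e2, e3⟩ := any_e.1 H
        rw [and_e, not_e, beq_iff, beq_iff, dv_e] at e3
        obtain ⟨-, e4, e5⟩ := I.rep.st x e2
        obtain ⟨z, e6, e7⟩ := cnt_pos.1 (e4 ▸ e5)
        have e8 := Multiset.mem_of_le I.le e6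
        have e9 := lt_of_lt_of_le two_pos (h.two z e8)
        rw [← e7] at e3
        rcases k6 z e8 e3.1 e3.2 with ⟨⟨o'', c'⟩, e4, rfl, e10⟩ | e4
        · exact absurd (I.ord z e6 _ e4) (not_le2 (lt_of_lt_of_le (by norm_num)
            (h.five _ (I.eq ▸ Multiset.mem_add.2 (Or.inl e4)))) e9 e3.1 e3.2 e10)
        · exact absurd (hm z e6) (not_le2 h0 e9 e3.1 e3.2 e4)
      · obtain ⟨b', e2, e3, H⟩ := oblig_s P base h7.1
          (fun x hx => k6 x (I.eq ▸ Multiset.mem_add.2 (Or.inl hx))) H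
        exact k4 _ b' h6 (k5 k) e2 e3 H
    · cases A
      · exact k4 1 _ one_pos (Multiset.singleton_le.2 hy) dvd_rfl h7.1 H
      · exact k4 _ _ h6 (k5 (Or.inl rfl)) dvd_rfl h7.1 H

theorem go_s (h : CD K1 N L) (hP : Par N L prs A2) (hc : ∀ z ∈ L, cok z.1 z.2 = true) {W0 : ℕ}
    (hW : (1 : ℚ) / N ≤ W0 / DD) {fin : PP → ℕ → Bool}
    (hf : ∀ P : PP, (P : MM) = L → fin P N = true → C) (f : ℕ) :
    ∀ a b j cl ol bf pm P R Q, Inv N L a b j cl ol bf pm P R Q →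
      go K1 W0 cok fin prs A2 f a b j cl ol bf pm P R = true → C := by
  induction f with
  | zero => intro _ _ _ _ _ _ _ _ _ _ _ H; cases H
  | succ f ih => exact fun _ _ _ _ _ _ _ _ _ _ I H => step_s h hP hc hW hf ih I H

end

end Cfsg.Lib.KCl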