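import Cfsg.Agent.Lib.KCl.Snd2

/-!
# Soundness of the search through the element orders
-/

set_option autoImplicit false

namespace Cfsg.Lib.KCl

open Cfsg.Lib.Calc

def mass (S : List Ent) : ℕ := (S.map fun e => e.rem * wt e.lb).sum

def Msk (L : MM) (msk last : ℕ) : Prop :=
  ∀ x, msk.testBit x = true ↔ x = 1 ∨ (x ≤ last ∧ ∃ z ∈ L, z.1 = x)

structure SInv (N : ℕ) (L : MM) (W0 : ℕ) (S : List Ent) (prs : List ℕ) (A2 msk last r ms : ℕ) :
    Prop where
  rep : Rep N L S (L.filter (·.1 ≤ last))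
  r : r = (L.filter (¬ ·.1 ≤ last)).card
  ms : ms = W0 + mass S
  pr : ∀ r ∈ prs, r.Prime
  cov : ∀ z ∈ L, z.1.Prime → z.1 ≤ last → z.1 ∈ prs
  A : ∀ r, r.Prime → r ∣ A2 → ¬ r ^ 2 ∣ N
  msk : Msk L msk last

variable {K1 N W0 : ℕ} {L : MM} {S : List Ent} {prs : List ℕ} {A2 msk last r ms : ℕ}

theorem SInv.mass_le (h : CD K1 N L) (hW : (1 : ℚ) / N ≤ W0 / DD)
    (I : SInv N L W0 S prs A2 msk last r ms) {w : ℕ} (h0 : 0 < w)
    (hw : ∀ z ∈ L, last < z.1 → w ≤ z.2) : DD ≤ ms + r * wt w := by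
  have h1 := h.sum
  rw [← Multiset.filter_add_not (·.1 ≤ last) L, Multiset.map_add, Multiset.sum_add, I.rep.sum] at h1
  have h2 := sum_le (L.filter (¬ ·.1 ≤ last)) (β := wt w / DD) fun z hz =>
    wt_le h0 (hw z (Multiset.mem_filter.1 hz).1 (not_le.1 (Multiset.mem_filter.1 hz).2))
  have h3 := List.sum_le_sum (l := S) fun e he => I.rep.sE_le (Multiset.filter_le _ _) he
  have h4 : (S.map fun e => ((e.rem * wt e.lb : ℕ) : ℚ) / DD).sum = (mass S : ℚ) / DD := by
    unfold mass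
    rw [Nat.cast_list_sum, List.map_map, div_eq_mul_inv, ← List.sum_map_mul_right]
    rfl
  rw [← I.r] at h2
  have h5 : (1 : ℚ) ≤ (ms + r * wt w : ℕ) / DD := by
    rw [I.ms, Nat.cast_add, Nat.cast_add, Nat.cast_mul, add_div, add_div, mul_div_assoc]
    linarith
  rw [one_le_div DD_pos] at h5
  exact Nat.cast_le.1 h5

theorem cnt_filter {x t : ℕ} (h : x ≤ t) : cnt (L.filter (·.1 ≤ t)) x = cnt L x := by
  unfold cnt
  rw [Multiset.filter_filter]
  congr 1
  exact Multiset.filter_congr fun z _ => ⟨fun k => k.1, fun k => ⟨k, k ▸ h⟩⟩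

theorem SInv.le (I : SInv N L W0 S prs A2 msk last r ms) {e : Ent} (he : e ∈ S) :
    e.o ≤ last ∧ ∃ z ∈ L, z.1 = e.o := by
  obtain ⟨-, h1, h2⟩ := I.rep.st e he
  obtain ⟨z, h3, h4⟩ := cnt_pos.1 (h1 ▸ h2)
  rw [Multiset.mem_filter] at h3
  exact ⟨h4 ▸ h3.2, z, h3.1, h4⟩

/-- `o` is the next order. -/
structure Nxt (L : MM) (last o : ℕ) : Prop where
  lt : last < o
  ex : ∃ z ∈ L, z.1 = o
  min : ∀ z ∈ L, last < z.1 → o ≤ z.1

theorem Nxt.le {o : ℕ} (n : Nxt L last o) {z : ℕ × ℕ} (hz : z ∈ L) (h : z.1 < o) : z.1 ≤ last :=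
  not_lt.1 fun k => (n.min z hz k).not_gt h

theorem Nxt.card {o : ℕ} (n : Nxt L last o) :
    (L.filter (¬ ·.1 ≤ last)).card = cnt L o + (L.filter (¬ ·.1 ≤ o)).card := by
  rw [← Multiset.filter_add_not (·.1 = o) (L.filter (¬ ·.1 ≤ last)), Multiset.card_add,
    Multiset.filter_filter, Multiset.filter_filter]
  have := n.lt
  unfold cnt
  congr 2
  · exact Multiset.filter_congr fun z _ => ⟨fun k => k.1, fun k => ⟨k, by omega⟩⟩
  · refine Multiset.filter_congr fun z hz => ⟨fun k => ?_, fun k => by omega⟩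
    have := n.min z hz
    omega

theorem Nxt.mask {o : ℕ} (n : Nxt L last o) (h : Msk L msk last) :
    Msk L (Nat.lor msk (Nat.shiftLeft (nat_lit 1) o)) o := fun x => by
  rw [bit_or, h x, or_assoc]
  refine or_congr_right ⟨?_, fun k => ?_⟩
  · rintro (k | rfl)
    exacts [⟨k.1.trans n.lt.le, k.2⟩, ⟨le_rfl, n.ex⟩]
  · rcases k.1.eq_or_lt with e | e
    · exact Or.inr e
    · obtain ⟨z, h1, rfl⟩ := k.2
      exact Or.inl ⟨n.le h1 e, z, h1, rfl⟩

variable {C : Prop} {g : Sk} {sel : Se}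

def SelOK (N : ℕ) (L : MM) (sel : Se) : Prop :=
  ∀ o b A msk, (∃ z ∈ L, z.1 = o) → b ∣ N → (A = true → ¬ o ^ 2 ∣ N) → Msk L msk o →
    sel o (cnt L o) b A msk = true

theorem SInv.child (I : SInv N L W0 S prs A2 msk last r ms) {o : ℕ} (n : Nxt L last o)
    {prs' : List ℕ} {A2' b lb : ℕ} {A u : Bool} (h1 : ∀ r ∈ prs', r.Prime)
    (h2 : ∀ r ∈ prs, r ∈ prs') (h3 : o.Prime → o ∈ prs') (h4 : ∀ r, r.Prime → r ∣ A2' → ¬ r ^ 2 ∣ N)
    (h5 : St N L ⟨o, cnt L o, b, lb, A, u, false⟩) :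
    SInv N L W0 (⟨o, cnt L o, b, lb, A, u, false⟩ :: S) prs' A2'
      (Nat.lor msk (Nat.shiftLeft (nat_lit 1) o)) o (r - cnt L o) (ms + cnt L o * wt lb) := by
  refine ⟨⟨?_, fun e he => ?_, fun z hz => ?_⟩, ?_, ?_, h1, fun z a b c => ?_, h4, n.mask I.msk⟩
  · rw [List.map_cons, List.nodup_cons]
    refine ⟨fun k => ?_, I.rep.nd⟩
    obtain ⟨e, he, k⟩ := List.mem_map.1 k
    exact (I.le he).1.not_gt (k ▸ n.lt)
  · rcases List.mem_cons.1 he with rfl | he
    · exact ⟨h5, (cnt_filter le_rfl).symm, cnt_pos.2 n.ex⟩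
    · obtain ⟨k1, k2, k3⟩ := I.rep.st e he
      have := (I.le he).1
      exact ⟨k1, by rw [k2, cnt_filter this, cnt_filter (this.trans n.lt.le)], k3⟩
  · rw [Multiset.mem_filter] at hz
    rcases hz.2.eq_or_lt with e | e
    · exact ⟨_, List.mem_cons_self, e.symm⟩
    · obtain ⟨x, k1, k2⟩ := I.rep.cov z (Multiset.mem_filter.2 ⟨hz.1, n.le hz.1 e⟩)
      exact ⟨x, List.mem_cons_of_mem _ k1, k2⟩
  · rw [I.r, n.card, Nat.add_sub_cancel_left]
  · rw [I.ms, mass, mass, List.map_cons, List.sum_cons]; ring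
  · rcases c.eq_or_lt with e | e
    · exact e ▸ h3 (e ▸ b)
    · exact h2 _ (I.cov z a b (n.le a e))

theorem SInv.next (h : CD K1 N L) (hW : (1 : ℚ) / N ≤ W0 / DD) {o : ℕ}
    (I : SInv N L W0 S prs A2 msk o r ms) : DD ≤ ms + r * wt (max (o + 1) 5) :=
  I.mass_le h hW (by omega) fun z a b => max_le
    (le_trans b (Nat.le_of_dvd (lt_of_lt_of_le (by norm_num) (h.five z a)) (h.dvd z a))) (h.five z a)

theorem kid_s (h : CD K1 N L) (hW : (1 : ℚ) / N ≤ W0 / DD) (hs : SelOK N L sel)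
    (hg : ∀ S prs A2 msk last r ms, 2 ≤ last → SInv N L W0 S prs A2 msk last r ms →
      g S prs A2 msk last r ms = true → C)
    (I : SInv N L W0 S prs A2 msk last r ms) {o : ℕ} (n : Nxt L last o)
    {prs' : List ℕ} {A2' b lb : ℕ} {A : Bool} (h1 : ∀ r ∈ prs', r.Prime)
    (h2 : ∀ r ∈ prs, r ∈ prs') (h3 : o.Prime → o ∈ prs') (h4 : ∀ r, r.Prime → r ∣ A2' → ¬ r ^ 2 ∣ N)
    (h5 : St N L ⟨o, cnt L o, b, lb, A, false, false⟩)
    (H : kid (kid2 sel g S prs' A2' (Nat.lor msk (Nat.shiftLeft (nat_lit 1) o)) o b lb A) r ms o lb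
      (cnt L o) = true) : C := by
  have I1 := I.child n h1 h2 h3 h4 h5
  unfold kid at H
  rw [forceB_eq, forceB_eq, mx_e] at H
  have H := imp_e.1 H (ble_iff.2 (I1.next h hW))
  obtain ⟨z, k1, k2⟩ := n.ex
  have H := imp_e.1 H (hs o b A _ n.ex ((h5.bl z k1 k2).1.trans (h.dvdN z k1))
    (fun k => (h5.A k).2) I1.msk)
  rw [if_e] at H
  split_ifs at H with e
  · rw [beq_iff] at e
    have I2 := I.child (u := true) n h1 h2 h3 h4 ⟨h5.ob, h5.lbp, h5.bl, h5.A, fun _ => e⟩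
    rw [e] at I2 H
    exact hg _ _ _ _ _ _ _ (k2 ▸ h.two z k1) I2 H
  · exact hg _ _ _ _ _ _ _ (k2 ▸ h.two z k1) I1 H

theorem ups_s (h : CD K1 N L) {o : ℕ} (ho : ∃ z ∈ L, z.1 = o) {Q : MM} (hQ : Q ≤ L)
    {k : List Ent → ℕ → Bool} (T : List Ent) : ∀ acc ms,
      (∀ e ∈ T, St N L e ∧ e.rem = cnt Q e.o ∧ 0 < e.rem) →
      (∀ e ∈ acc, St N L e ∧ e.rem = cnt Q e.o ∧ 0 < e.rem) → ms = W0 + mass acc + mass T →
      ups T o k acc ms = true → ∃ S', (S'.map Ent.o).Perm (acc.map Ent.o ++ T.map Ent.o) ∧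
        (∀ e ∈ S', St N L e ∧ e.rem = cnt Q e.o ∧ 0 < e.rem) ∧ k S' (W0 + mass S') = true := by
  induction T with
  | nil => exact fun acc ms _ h1 h2 H => ⟨acc, by simp, h1, by rw [← H, h2]; rfl⟩
  | cons e T ih =>
    intro acc ms h1 h2 h3 H
    rw [List.forall_mem_cons] at h1
    have k1 : ∀ e' ms', e'.o = e.o → (St N L e' ∧ e'.rem = cnt Q e'.o ∧ 0 < e'.rem) →
        ms' = W0 + mass (e' :: acc) + mass T → ups T o k (e' :: acc) ms' = true →
        ∃ S', (S'.map Ent.o).Perm (acc.map Ent.o ++ (e :: T).map Ent.o) ∧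
        (∀ e ∈ S', St N L e ∧ e.rem = cnt Q e.o ∧ 0 < e.rem) ∧ k S' (W0 + mass S') = true :=
      fun e' ms' a b c d => by
        obtain ⟨S', k1, k2⟩ := ih _ _ h1.2 (List.forall_mem_cons.2 ⟨b, h2⟩) c d
        refine ⟨S', k1.trans ?_, k2⟩
        rw [List.map_cons, List.map_cons, a]
        exact List.perm_middle.symm
    obtain ⟨o', rem, base, lb, A, u, hm⟩ := e
    change @Bool.rec (fun _ => Bool) (ups T o k (_ :: acc) ms) (@Bool.rec (fun _ => Bool)
      (ups T o k (_ :: acc) ms) (forceB (lc base o) fun b' => forceB (mx lb b') fun l' =>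
        forceB (ms + rem * wt l' - rem * wt lb) fun ms' =>
          ups T o k (⟨o', rem, b', l', A, u, true⟩ :: acc) ms') _) _ = true at H
    simp only [mass, List.map_cons, List.sum_cons] at h3 k1
    obtain ⟨⟨s1, s2, s3⟩, -⟩ := h1
    rw [if_e] at H
    split_ifs at H with e1
    · rw [if_e] at H
      split_ifs at H with e2
      · rw [forceB_eq, forceB_eq, forceB_eq, lc_e, mx_e] at H
        refine k1 ⟨o', rem, _, _, A, u, true⟩ _ rfl ⟨⟨s1.ob.trans (Nat.dvd_lcm_left _ _), lt_max_of_lt_left s1.lbp,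
          fun z a b => ?_, s1.A, s1.u⟩, s2, s3⟩ (by dsimp only; omega) H
        obtain ⟨x, a1, rfl⟩ := ho
        obtain ⟨y, a2, a3, a4⟩ := h.pow x a1 z.1 (b ▸ dv_e.1 (beq_iff.1 e1)) (h.two z a)
        have a5 : y.2 = z.2 := by
          rcases or_e.1 e2 with e | e
          · exact (h.typA z a (b ▸ (s1.A e).1) (b ▸ (s1.A e).2)).1 y a2 a3
          · rw [eq_of_cnt (b ▸ s1.u e) a a2 a3]
        have a6 := Nat.lcm_dvd (s1.bl z a b).1 (a5 ▸ (h.dvd x a1).trans a4)
        exact ⟨a6, max_le (s1.bl z a b).2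
          (Nat.le_of_dvd (lt_of_lt_of_le (by norm_num) (h.five z a)) a6)⟩
      · exact k1 ⟨o', rem, base, lb, A, u, true⟩ _ rfl ⟨⟨s1.ob, s1.lbp, s1.bl, s1.A, s1.u⟩, s2, s3⟩ (by dsimp only; omega) H
    · exact k1 _ _ rfl ⟨s1, s2, s3⟩ (by dsimp only; omega) H

theorem prish_s {p : ℕ} (hp : p.Prime) : prish p = true := by
  refine or_e.2 (or_iff_not_imp_left.2 fun h => ?_)
  rw [beq_iff] at h
  have h1 : p ∣ 2 * 3 * 5 * 7 * 11 * 13 * 17 * 19 * 23 := by
    by_contra k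
    exact h ((Nat.Prime.coprime_iff_not_dvd hp).2 k)
  have k : ∀ q, q.Prime → p ∣ q → p = q := fun q a b => (Nat.prime_dvd_prime_iff_eq hp a).1 b
  simp only [hp.dvd_mul] at h1
  rcases h1 with (((((((h1 | h1) | h1) | h1) | h1) | h1) | h1) | h1) | h1 <;>
    rw [k _ (by norm_num) h1] <;> rfl

variable {lbf : ℕ → ℕ}

theorem sk_s (h : CD K1 N L) (hW : (1 : ℚ) / N ≤ W0 / DD) (hs : SelOK N L sel)
    (hl : ∀ z ∈ L, lbf z.1 ≤ z.2) {lf : Sel}
    (hf : ∀ S prs A2 msk last ms, SInv N L W0 S prs A2 msk last 0 ms → lf S prs A2 msk = true → C)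
    (f : ℕ) : ∀ S prs A2 msk last r ms, 2 ≤ last → SInv N L W0 S prs A2 msk last r ms →
      sk K1 lbf sel lf f S prs A2 msk last r ms = true → C := by
  induction f with
  | zero => intro _ _ _ _ _ _ _ _ _ H; cases H
  | succ f hg =>
    intro S prs A2 msk last r ms l2 I H
    change @Bool.rec (fun _ => Bool) (@Bool.rec (fun _ => Bool) false (@Bool.rec (fun _ => Bool) false
      (kB sel (sk K1 lbf sel lf f) S prs A2 msk last r ms)
      (kA K1 lbf sel (sk K1 lbf sel lf f) S prs A2 msk last r ms))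
      (kC lbf sel (sk K1 lbf sel lf f) S prs A2 msk last r ms)) (lf S prs A2 msk) _ = true at H
    generalize sk K1 lbf sel lf f = g at hg H
    rw [if_e] at H
    split_ifs at H with e
    · obtain rfl : r = 0 := beq_iff.1 e
      exact hf _ _ _ _ _ _ I H
    rw [beq_iff] at e
    rw [and_e, and_e] at H
    obtain ⟨HC, HA, HB⟩ := H
    have k0 : ∃ o, last < o ∧ ∃ z ∈ L, z.1 = o := by
      obtain ⟨z, hz⟩ := Multiset.card_pos_iff_exists_mem.1 (I.r ▸ Nat.pos_of_ne_zero e)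
      rw [Multiset.mem_filter] at hz
      exact ⟨z.1, not_le.1 hz.2, z, hz.1, rfl⟩
    classical
    have n : Nxt L last (Nat.find k0) := ⟨(Nat.find_spec k0).1, (Nat.find_spec k0).2,
      fun z a b => Nat.find_min' k0 ⟨b, z, a, rfl⟩⟩
    generalize Nat.find k0 = o at n
    obtain ⟨z, hz, rfl⟩ := n.ex
    have k1 : ∀ y ∈ L, 0 < y.2 := fun y a => lt_of_lt_of_le (by norm_num) (h.five y a)
    have k2 : ∀ y ∈ L, y.1 ≤ y.2 := fun y a => Nat.le_of_dvd (k1 y a) (h.dvd y a)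
    have k3 : pre last r ms z.1 = true := and_e.2 ⟨ble_iff.2 n.lt, ble_iff.2 (mx_e _ _ ▸
      I.mass_le h hW (w := max z.1 5) (by omega) fun y a b =>
        max_le ((n.min y a b).trans (k2 y a)) (h.five y a))⟩
    have k4 := cnt_pos.2 n.ex
    have k5 : cnt L z.1 ≤ r := by rw [I.r, n.card]; exact Nat.le_add_right _ _
    obtain ⟨m, hm⟩ := Nat.exists_eq_succ_of_ne_zero k4.ne'
    have k6 : m < r := by omega
    have k7 : ∀ y ∈ L, y.1 < z.1 → ∃ e ∈ S, e.o = y.1 := fun y a b =>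
      I.rep.cov y (Multiset.mem_filter.2 ⟨a, n.le a b⟩)
    have k8 : ∀ A, (A = true → z.1.Prime ∧ ¬ z.1 ^ 2 ∣ N) →
        St N L ⟨z.1, cnt L z.1, z.1, max z.1 (lbf z.1), A, false, false⟩ := fun A a =>
      ⟨dvd_rfl, lt_max_of_lt_left (lt_of_lt_of_le two_pos (h.two z hz)), fun y b (c : y.1 = z.1) =>
        ⟨show z.1 ∣ y.2 from c ▸ h.dvd y b, max_le (c ▸ k2 y b) (c ▸ hl y b)⟩, a, fun k => absurd k Bool.false_ne_true⟩
    by_cases hp : z.1.Prime
    · have k9 : ∀ r ∈ z.1 :: prs, r.Prime := List.forall_mem_cons.2 ⟨hp, I.pr⟩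
      by_cases h2 : z.1 ^ 2 ∣ N
      · obtain ⟨-, t, e', t1, t2, t3, t4⟩ := h.typB z hz hp h2
        obtain ⟨q, hq⟩ := Nat.exists_eq_succ_of_ne_zero hp.ne_zero
        obtain ⟨t, rfl⟩ := Nat.exists_eq_succ_of_ne_zero t1.ne'
        have k' : t + 1 ∣ q ∧ msk.testBit (q / (t + 1)) = true := by
          obtain rfl : q = (t + 1) * e' := Nat.succ_injective (hq.symm.trans t3)
          refine ⟨dvd_mul_right _ _, ?_⟩
          rw [Nat.mul_div_cancel_left _ t.succ_pos, I.msk]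
          refine t4.imp_right fun ⟨y, a, b⟩ => ⟨b ▸ n.le a ?_, y, a, b⟩
          rw [hq, b, add_mul]
          omega
        have k : ∃ i, i + 1 ∣ q ∧ msk.testBit (q / (i + 1)) = true := ⟨t, k'⟩
        have a1 := Nat.find_spec k
        have a2 : Nat.find k ≤ m := (Nat.find_min' k k').trans (by omega)
        have a3 := fun u => Nat.find_min k (m := u)
        generalize Nat.find k = i at a1 a2 a3
        obtain ⟨⟨e, rfl⟩, a1⟩ := a1
        rw [Nat.mul_div_cancel_left _ i.succ_pos, I.msk] at a1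
        have HB : kB1 (kB2 (kB3 sel g S prs A2 msk r ms) msk r ms) last r e = true := by
          rcases a1 with rfl | ⟨b1, y, b2, rfl⟩
          · exact (and_e.1 HB).1
          · obtain ⟨x, b3, b4⟩ := I.rep.cov y (Multiset.mem_filter.2 ⟨b2, b1⟩)
            exact b4 ▸ all_e.1 (and_e.1 HB).2 x b3
        have HB := alt_e.1 HB i (a2.trans_lt k6)
        rw [forceB_eq] at HB
        have HB := imp_e.1 HB (ble_iff.2 (Nat.lt_succ_iff.1 (n.lt.trans_eq hq)))
        rw [forceB_eq] at HB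
        change kB2 _ msk r ms i ((i + 1) * e) ((i + 1) * e).succ = true at HB
        rw [← hq] at HB
        have s : St N L ⟨z.1, cnt L z.1, z.1 * z.1, z.1 * z.1, false, false, false⟩ :=
          ⟨dvd_mul_right _ _, Nat.mul_pos hp.pos hp.pos, fun y b c => by
            have := (h.typB y b (c ▸ hp) (c ▸ h2)).1
            rw [c, sq] at this
            exact ⟨this, Nat.le_of_dvd (k1 y b) this⟩, fun k => absurd k Bool.false_ne_true,
            fun k => absurd k Bool.false_ne_true⟩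
        have I1 := (I.child n k9 (fun _ => List.mem_cons_of_mem _) (fun _ => List.mem_cons_self)
          I.A s).next h hW
        unfold kB2 at HB
        rw [forceB_eq, mx_e] at HB
        have HB := imp_e.1 (imp_e.1 (imp_e.1 HB (ble_iff.2 ?_)) (prish_s hp)) (alt_e.2 fun u b =>
          imp_e.2 fun c => not_e.2 fun d => a3 u b ⟨dv_e.1 (beq_iff.1 c), bit_e.1 (beq_iff.1 d)⟩)
        · unfold kB3 at HB
          rw [forceB_eq] at HB
          have HB := imp_e.1 (alt_e.1 HB m k6) (ble_iff.2 a2)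
          rw [forceB_eq, ← hm] at HB
          exact kid_s h hW hs hg I n k9 (fun _ => List.mem_cons_of_mem _)
            (fun _ => List.mem_cons_self) I.A s HB
        · have b0 := n.lt
          have b1 : wt (z.1 * z.1) ≤ wt (max z.1 5) := wt_anti (by omega) (max_le (by nlinarith) (by nlinarith))
          have b2 : wt (max (z.1 + 1) 5) ≤ wt (max z.1 5) := wt_anti (by omega) (by omega)
          change DD ≤ ms + (i + 1) * wt (z.1 * z.1) + (r - (i + 1)) * wt (max z.1 5)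
          obtain ⟨d, rfl⟩ := Nat.exists_eq_add_of_le a2
          obtain ⟨d', rfl⟩ := Nat.exists_eq_add_of_lt k6
          rw [hm, show i + d + d' + 1 - (i + d).succ = d' by omega] at I1
          rw [show i + d + d' + 1 - (i + 1) = d + d' by omega]
          have := Nat.mul_le_mul_left d b1
          have := Nat.mul_le_mul_left d' b2
          rw [Nat.succ_eq_add_one] at I1
          linarith
      · obtain ⟨-, y, t1, t2, t3⟩ := h.typA z hz hp h2
        obtain ⟨x, t4, t5⟩ := k7 y t1 (by nlinarith)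
        have HA := imp_e.1 (alt_e.1 (all_e.1 HA x t4) m k6) (ble_iff.2 (by
          change x.o + m ≤ K1; omega))
        rw [forceB_eq, forceB_eq, ← hm, t5] at HA
        change @Bool.rec (fun _ => Bool) true (@Bool.rec (fun _ => Bool) true
          (kA2 lbf sel g S prs A2 msk r ms _ (cnt L z.1 * y.1 + 1)) (prish (cnt L z.1 * y.1 + 1)))
          (pre last r ms (cnt L z.1 * y.1 + 1)) = true at HA
        rw [← t2] at HA
        have HA := imp_e.1 (imp_e.1 HA k3) (prish_s hp)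
        unfold kA2 at HA
        rw [forceB_eq, forceB_eq, forceB_eq, mx_e] at HA
        refine kid_s h hW hs hg I n k9 (fun _ => List.mem_cons_of_mem _)
          (fun _ => List.mem_cons_self) (fun q a b => ?_) (k8 true fun _ => ⟨hp, h2⟩) HA
        rcases a.dvd_mul.1 b with c | c
        · exact I.A q a c
        · rwa [(Nat.prime_dvd_prime_iff_eq a hp).1 c]
    · have t0 := h.two z hz
      have t1 := Nat.minFac_prime (n := z.1) (by omega)
      have k : ∀ q, q.Prime → q ∣ z.1 → ∃ y ∈ L, y.1 = z.1 / q ∧ y.1 < z.1 := fun q a b => by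
        obtain ⟨d, hd⟩ := b
        have := a.two_le
        have t2 : 1 < d := by
          by_contra k
          interval_cases d
          · omega
          · exact hp (by rwa [hd, mul_one])
        obtain ⟨y, c1, c2, -⟩ := h.pow z hz d (Dvd.intro_left _ hd.symm) t2
        exact ⟨y, c1, by rw [c2, hd, Nat.mul_div_cancel_left _ a.pos], by nlinarith⟩
      obtain ⟨y, t2, t3, t4⟩ := k _ t1 (Nat.minFac_dvd _)
      obtain ⟨x, t5, t6⟩ := k7 y t2 t4
      obtain ⟨w, t7, t8, -⟩ := h.pow z hz _ (Nat.minFac_dvd _) t1.one_lt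
      have t9 := I.cov w t7 (t8 ▸ t1) (n.le t7 (t8 ▸ (Nat.not_prime_iff_minFac_lt t0).1 hp))
      have HC := all_e.1 (all_e.1 HC _ t9) x t5
      have e1 : Nat.mul x.o w.1 = z.1 := by
        rw [t6, t3, t8]; exact Nat.div_mul_cancel (Nat.minFac_dvd _)
      rw [forceB_eq, e1] at HC
      have HC := imp_e.1 (imp_e.1 HC k3) (and_e.2 ⟨imp_e.2 fun a => not_e.2 fun b => ?_,
        all_e.2 fun q a => imp_e.2 fun b => ?_⟩)
      · obtain ⟨S', a1, a2, HC⟩ := ups_s (W0 := W0) h n.ex (Multiset.filter_le _ _) S [] ms I.rep.st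
          (fun _ k => absurd k List.not_mem_nil) I.ms HC
        have I' : SInv N L W0 S' prs A2 msk last r (W0 + mass S') :=
          ⟨⟨a1.nodup_iff.2 I.rep.nd, a2, fun y b => List.mem_map.1 (a1.symm.subset
            (List.mem_map.2 (I.rep.cov y b)))⟩, I.r, rfl, I.pr, I.cov, I.A, I.msk⟩
        unfold kC3 at HC
        rw [forceB_eq, forceB_eq] at HC
        have HC := alt_e.1 HC m k6
        rw [forceB_eq, ← hm, mx_e] at HC
        exact kid_s h hW hs hg I' n I.pr (fun _ => id) (fun k => absurd k hp) I.A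
          (k8 false fun k => absurd k Bool.false_ne_true) HC
      · refine I.A w.1 (t8 ▸ t1) (dv_e.1 (beq_iff.1 b)) (dvd_trans ?_ ((h.dvd z hz).trans (h.dvdN z hz)))
        rw [← e1, beq_iff.1 a, sq]
        exact dvd_rfl
      · have b := dv_e.1 (beq_iff.1 b)
        obtain ⟨v, c1, c2, c3⟩ := k q (I.pr q a) b
        exact and_e.2 ⟨ble_iff.2 (t8 ▸ Nat.minFac_le_of_dvd (I.pr q a).two_le b),
          beq_iff.2 (bit_e.2 ((I.msk _).2 (Or.inr ⟨c2.symm.trans_le (n.le c1 c3), v, c1, c2⟩)))⟩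

structure FI (N : ℕ) (L : MM) (S : List Ent) (prs : List ℕ) (A2 msk : ℕ) : Prop where
  rep : Rep N L S L
  par : Par N L prs A2
  msk : ∀ z ∈ L, msk.testBit z.1 = true

theorem run_s (h : CD K1 N L) {N0 : ℕ} (h0 : 0 < N0) (hN : N0 ≤ N) (hs : SelOK N L sel)
    (hl : ∀ z ∈ L, lbf z.1 ≤ z.2) {cok : ℕ → ℕ → Bool} (hc : ∀ z ∈ L, cok z.1 z.2 = true)
    {lsel : Sel} (hls : ∀ S prs A2 msk, FI N L S prs A2 msk → lsel S prs A2 msk = true)
    {fin : List ℕ → PP → ℕ → Bool}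
    (hf : ∀ prs (P : PP), (P : MM) = L → fin prs P N = true → C)
    (H : run K1 N0 lbf cok fin sel lsel (cnt L 2) = true) : C := by
  have hW := wt_le h0 hN
  unfold run at H
  rw [forceB_eq, forceB_eq, mx_e] at H
  have e : L.filter (·.1 ≤ 1) = 0 := Multiset.filter_eq_nil.2 fun z a => not_le.2 (h.two z a)
  have I : SInv N L (wt N0) [] [] 1 2 1 K1 (wt N0) := by
    refine ⟨⟨List.nodup_nil, by simp, by simp [e]⟩, ?_, rfl, by simp,
      fun z a _ b => absurd b (not_le.2 (h.two z a)), fun r a b => absurd (Nat.dvd_one.1 b) a.ne_one,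
      fun x => ?_⟩
    · rw [Multiset.filter_eq_self.2 fun z a => not_le.2 (h.two z a), h.card]
    · rw [← pow_one 2, Nat.testBit_two_pow, decide_eq_true_eq, eq_comm, iff_self_or]
      rintro ⟨a, z, b, rfl⟩
      exact absurd a (not_le.2 (h.two z b))
  refine kid_s h hW hs (sk_s h hW hs hl (fun S prs A2 msk last ms J H => ?_) K1) I
    ⟨one_lt_two, h.inv2, fun z a _ => h.two z a⟩ (prs' := [2]) (by simpa using Nat.prime_two)
    (by simp) (by simp) I.A ⟨⟨2, rfl⟩, lt_max_of_lt_left four_pos, fun z a (b : z.1 = 2) => ?_,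
      fun k => absurd k Bool.false_ne_true, fun k => absurd k Bool.false_ne_true⟩ H
  · have e1 : ∀ z ∈ L, z.1 ≤ last := fun z a => by
      by_contra k
      exact Multiset.notMem_zero z (Multiset.card_eq_zero.1 J.r.symm ▸ Multiset.mem_filter.2 ⟨a, k⟩)
    have F : FI N L S prs A2 msk := ⟨by have := J.rep; rwa [Multiset.filter_eq_self.2 e1] at this,
      ⟨J.pr, fun z a b => J.cov z a b (e1 z a), J.A⟩, fun z a => (J.msk _).2 (Or.inr ⟨e1 z a, z, a, rfl⟩)⟩
    refine go_s h F.par hc hW (hf prs) _ _ _ _ _ _ _ _ _ _ L ⟨zero_add _, one_pos, ?_, h.card.symm,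
      by simp, fun z a => Or.inl (lt_of_lt_of_le (by norm_num) (h.five z a)), Or.inl rfl, by simp,
      F.rep⟩ (imp_e.1 H (hls _ _ _ _ F))
    rw [← h.sum]; exact div_self one_ne_zero
  · have := (h.typB z a (b ▸ Nat.prime_two) (by rw [b]; exact h.four)).1
    rw [b] at this
    exact ⟨this, max_le (Nat.le_of_dvd (lt_of_lt_of_le (by norm_num) (h.five z a)) this) ((congrArg lbf b).symm.trans_le (hl z a))⟩

end Cfsg.Lib.KCl
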