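import Cfsg.Agent.Lib.KCl.Snd3

/-!
# The side conditions of the search
-/

set_option autoImplicit false

namespace Cfsg.Lib.KCl

open Cfsg.Lib.Calc

variable {K1 N : ℕ} {L : MM}

theorem psum_e (f : ℕ → Bool) (T : ℕ → Prop) [DecidablePred T] (h : ∀ o, f o = true ↔ T o) (P : PP) :
    psum N f P = (((P : MM).filter (T ·.1)).map (N / ·.2)).sum := by
  induction P with
  | nil => rfl
  | cons x P ih =>
    change @Bool.rec (fun _ => ℕ) (psum N f P) (N / x.2 + psum N f P) (f x.1) = _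
    rw [if_e, ← Multiset.cons_coe, ih]
    split_ifs with k
    · rw [Multiset.filter_cons_of_pos (p := fun z : ℕ × ℕ => T z.1) _ ((h _).1 k), Multiset.map_cons,
        Multiset.sum_cons]
    · rw [Multiset.filter_cons_of_neg (p := fun z : ℕ × ℕ => T z.1) _ (mt (h _).2 k)]

theorem fin0_s (h : CD K1 N L) {N0 : ℕ} (hN : N0 ≤ N) {ok : PP → ℕ → Bool} {prs : List ℕ} {P : PP}
    (e : (P : MM) = L) (H : fin0 K1 N0 ok prs P N = true) : ok P N = true := by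
  subst e
  unfold fin0 at H
  have H := imp_e.1 (imp_e.1 (imp_e.1 H (ble_iff.2 hN))
    (all_e.2 fun x a => beq_iff.2 (dv_e.2 (h.dvdN x a)))) (all_e.2 fun r _ => by
      rw [forceB_eq, beq_iff, dv_e, psum_e _ (· ∣ Nat.gcd N (Nat.pow r (nat_lit 40)))
        fun _ => beq_iff.trans dv_e]
      exact h.frob1 _ (Nat.gcd_dvd_left _ _))
  rw [forceB_eq, psum_e _ (· = 2) fun _ => beq_iff] at H
  exact imp_e.1 H (ble_iff.2 h.inv)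

theorem lbf0_s (h : CD K1 N L) {C2 C6 : ℕ} (h2 : K1 * (C2 * C2) + C2 < N)
    (h6 : ∀ z ∈ L, z.1 = 6 → C6 ≤ z.2) : ∀ z ∈ L, lbf0 (C2 + 1) C6 z.1 ≤ z.2 := by
  intro z hz
  have h1 := h.five z hz
  have h3 := h.dvd z hz
  have h4 := Nat.le_of_dvd (by omega) h3
  unfold lbf0
  simp only [ifn_e, beq_iff]
  split_ifs with a b c d e
  · have := h.bf (c := z.2) (b ▸ hz)
    by_contra k
    have k : z.2 ≤ C2 := by omega
    have := Nat.mul_le_mul_left K1 (Nat.mul_le_mul k k)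
    omega
  · rw [c] at h3; change 3 ∣ _ at h3; change 6 ≤ _; omega
  · rw [d] at h3; change 4 ∣ _ at h3; change 8 ≤ _; omega
  · exact h6 z hz e
  · exact h4
  · exact h4

variable {S : List Ent} {prs : List ℕ} {A2 msk : ℕ}

theorem CD.mem_prs (h : CD K1 N L) (F : FI N L S prs A2 msk) {z : ℕ × ℕ} (hz : z ∈ L) {p : ℕ}
    (hp : p.Prime) (e : p ∣ z.1) : p ∈ prs := by
  obtain ⟨y, a, rfl, -⟩ := h.pow z hz p e hp.one_lt
  exact F.par.cov y a hp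

theorem lsel0_s (h : CD K1 N L)
    (h1 : ∃ z ∈ L, ∃ w ∈ L, z.1.Prime ∧ w.1.Prime ∧ 3 ≤ z.1 ∧ z.1 < w.1)
    (h2 : ∀ z ∈ L, z.1.Prime → ¬ z.1 ^ 2 ∣ N → z.1 = 2 * cnt L z.1 + 1 →
      ∃ w ∈ L, w.1 ≠ z.1 ∧ (z.1 ∣ w.1 ∨ w.1.Prime ∧ 8 ≤ w.1))
    (h3 : ∃ z ∈ L, ∃ p q, p.Prime ∧ q.Prime ∧ p < q ∧ z.1 = p * q) (F : FI N L S prs A2 msk) :
    lsel0 S prs A2 msk = true := by
  refine and_e.2 ⟨?_, and_e.2 ⟨all_e.2 fun s a => imp_e.2 fun b => imp_e.2 fun c => or_e.2 ?_, ?_⟩⟩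
  · obtain ⟨z, a, w, b, c, d, e, f⟩ := h1
    exact any_e.2 ⟨z.1, F.par.cov z a c, and_e.2 ⟨ble_iff.2 e,
      any_e.2 ⟨w.1, F.par.cov w b d, ble_iff.2 f⟩⟩⟩
  · obtain ⟨k1, k2, k3⟩ := F.rep.st s a
    obtain ⟨z, k4, k5⟩ := cnt_pos.1 (k2 ▸ k3)
    obtain ⟨w, k6, k7, k8⟩ := h2 z k4 (k5 ▸ (k1.A b).1) (k5 ▸ (k1.A b).2)
      (by rw [k5, ← k2]; exact beq_iff.1 c)
    rw [k5] at k7 k8
    rcases k8 with k8 | k8
    · obtain ⟨x, k9, k10⟩ := F.rep.cov w k6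
      exact Or.inl (any_e.2 ⟨x, k9, and_e.2 ⟨beq_iff.2 (dv_e.2 (k10 ▸ k8)),
        not_e.2 fun k => k7 (k10 ▸ beq_iff.1 k)⟩⟩)
    · exact Or.inr (any_e.2 ⟨w.1, F.par.cov w k6 k8.1, and_e.2 ⟨ble_iff.2 k8.2,
        not_e.2 fun k => k7 (beq_iff.1 k)⟩⟩)
  · obtain ⟨z, a, p, q, b, c, d, e⟩ := h3
    exact any_e.2 ⟨p, h.mem_prs F a b (e ▸ dvd_mul_right _ _), any_e.2 ⟨q, h.mem_prs F a c
      (e ▸ dvd_mul_left _ _), and_e.2 ⟨ble_iff.2 d, beq_iff.2 (bit_e.2 (e ▸ F.msk z a :))⟩⟩⟩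

theorem cnx_s {x : ℕ} {φ : ℕ → Bool} (h : φ (cnt L x) = true) {o : ℕ} (hm : Msk L msk o) :
    cnx x φ o (cnt L o) msk = true := by
  refine and_e.2 ⟨imp_e.2 fun a => beq_iff.1 a ▸ h, imp_e.2 fun a => or_e.2 ?_⟩
  rcases (cnt L x).eq_zero_or_pos with e | e
  · exact Or.inr (e ▸ h :)
  · exact Or.inl (beq_iff.2 (bit_e.2 ((hm x).2 (Or.inr ⟨Nat.le_of_succ_le (ble_iff.1 a), cnt_pos.1 e⟩))))

theorem selF_s {ps : List ℕ} (h : ∀ p ∈ ps, ∃ z ∈ L, z.1 = p) : SelOK N L (selF N ps) :=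
  fun o _ _ _ _ a b c => and_e.2 ⟨beq_iff.2 (dv_e.2 a), and_e.2 ⟨imp_e.2 fun d => not_e.2 fun e =>
    b d (by rw [sq]; exact dv_e.1 (beq_iff.1 e)), all_e.2 fun q d => imp_e.2 fun e =>
      beq_iff.2 (bit_e.2 ((c q).2 (Or.inr ⟨ble_iff.1 e, h q d⟩)))⟩⟩

theorem lselF_s {ps : List ℕ} (h : ∀ p ∈ ps, ∃ z ∈ L, z.1 = p) (F : FI N L S prs A2 msk) :
    lselF ps S prs A2 msk = true :=
  all_e.2 fun q d => let ⟨z, a, b⟩ := h q d; beq_iff.2 (bit_e.2 (b ▸ F.msk z a))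

noncomputable def okN (_ : PP) (N : ℕ) : Bool :=
  bor (Nat.beq N 7920) (bor (Nat.beq N 10752) (bor (Nat.beq N 21504) (Nat.beq N 86016)))

/-- The main search; the bits of `a3, a4, a6` are the admitted numbers of classes of elements
of orders `3, 4, 6`. -/
noncomputable def mainR (K1 : ℕ) (ok : PP → ℕ → Bool) (a3 a4 a6 m : ℕ) : Bool :=
  forceB (cnd (Nat.beq m 1) 12 6) fun c6 => run K1 5616 (lbf0 24 c6) (fun _ _ => true)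
    (fin0 K1 5616 ok) (fun o m _ _ msk => band (cnx 3 (bit a3) o m msk)
      (band (cnx 4 (bit a4) o m msk) (cnx 6 (bit a6) o m msk))) lsel0 m

theorem mainR_s (h : CD K1 N L) (hK : K1 ≤ 10) (hN : 5616 ≤ N)
    (h1 : ∃ z ∈ L, ∃ w ∈ L, z.1.Prime ∧ w.1.Prime ∧ 3 ≤ z.1 ∧ z.1 < w.1)
    (h2 : ∀ z ∈ L, z.1.Prime → ¬ z.1 ^ 2 ∣ N → z.1 = 2 * cnt L z.1 + 1 →
      ∃ w ∈ L, w.1 ≠ z.1 ∧ (z.1 ∣ w.1 ∨ w.1.Prime ∧ 8 ≤ w.1))
    (h3 : ∃ z ∈ L, ∃ p q, p.Prime ∧ q.Prime ∧ p < q ∧ z.1 = p * q)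
    (h4 : cnt L 2 = 1 → (6, 6) ∉ L) {ok : PP → ℕ → Bool} {a3 a4 a6 : ℕ}
    (b3 : bit a3 (cnt L 3) = true) (b4 : bit a4 (cnt L 4) = true) (b6 : bit a6 (cnt L 6) = true)
    (H : mainR K1 ok a3 a4 a6 (cnt L 2) = true) : ∃ P, ok P N = true := by
  unfold mainR at H
  rw [forceB_eq] at H
  refine run_s h (by norm_num) hN (fun _ _ _ _ _ _ _ a => band_eq_true.2 ⟨cnx_s b3 a,
    band_eq_true.2 ⟨cnx_s b4 a, cnx_s b6 a⟩⟩) (lbf0_s (C2 := 23) h (by omega) fun z a b => ?_)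
    (fun _ _ => rfl) (fun _ _ _ _ => lsel0_s h h1 h2 h3) (fun _ P a b => ⟨P, fin0_s h hN a b⟩) H
  have k1 := h.dvd z a
  have k2 := h.five z a
  rw [b] at k1
  cases e : Nat.beq (cnt L 2) 1
  · rw [cnd_false]; omega
  · have : z.2 ≠ 6 := fun k => h4 (beq_iff.1 e) ((Prod.ext b k : z = (6, 6)) ▸ a)
    rw [cnd_true]; omega

/-- The search for a given group order. -/
noncomputable def fixR (K1 N C2 : ℕ) (ps : List ℕ) (al : ℕ → Bool) (ok : PP → ℕ → Bool) : Bool :=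
  allLt K1 fun m => run K1 N (lbf0 (C2 + 1) 6) (fun _ c => Nat.beq (N % c) 0) (fin0 K1 N ok)
    (fun o m b A msk => band (al o) (selF N ps o m b A msk)) (lselF ps) (m + 1)

theorem fixR_s (h : CD K1 N L) {C2 : ℕ} (h2 : K1 * (C2 * C2) + C2 < N) {ps : List ℕ}
    (hp : ∀ p ∈ ps, ∃ z ∈ L, z.1 = p) {al : ℕ → Bool} (ha : ∀ z ∈ L, al z.1 = true)
    {ok : PP → ℕ → Bool} (H : fixR K1 N C2 ps al ok = true) :
    ∃ P : PP, (P : MM) = L ∧ ok P N = true := by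
  obtain ⟨m, hm⟩ := Nat.exists_eq_succ_of_ne_zero (cnt_pos.2 h.inv2).ne'
  have H := allLt_iff.1 H m (by
    have : cnt L 2 ≤ K1 := h.card ▸ Multiset.card_le_card (Multiset.filter_le _ _)
    omega)
  rw [show m + 1 = cnt L 2 from hm.symm] at H
  refine run_s h h.pos le_rfl ?_ ?_ ?_ ?_ ?_ H
  · rintro _ b A msk ⟨z, a, rfl⟩ c d e
    exact band_eq_true.2 ⟨ha z a, selF_s hp _ b A msk ⟨z, a, rfl⟩ c d e⟩
  · exact lbf0_s h h2 fun z a b =>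
      Nat.le_of_dvd (lt_of_lt_of_le (by norm_num) (h.five z a)) (b ▸ h.dvd z a)
  · exact fun z a => beq_iff.2 (Nat.mod_eq_zero_of_dvd (h.dvdN z a))
  · exact fun _ _ _ _ => lselF_s hp
  · exact fun _ P a b => ⟨P, a, fin0_s h le_rfl a b⟩

end Cfsg.Lib.KCl
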